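import Cfsg.Agent.Chev.CharTwoInvol.DataF4
import Cfsg.Agent.Chev.ValidF4

/-! The kernel checks of the tables for `F4`. -/

set_option autoImplicit false
set_option maxRecDepth 100000
set_option maxHeartbeats 4000000

namespace CfsgLib.Chev.CharTwoInvol.TabF4

theorem normal_ok : normalOK CfsgLib.Chev.DataF4.tbl states = true := by decide +kernel

theorem reduce_ok : reduceOK CfsgLib.Chev.DataF4.tbl states fins reds = true := by decide +kernel

theorem fins_ok : finsOK CfsgLib.Chev.DataF4.tbl masks fins certs = true := by decide +kernel

end CfsgLib.Chev.CharTwoInvol.TabF4
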