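import Cfsg.Agent.Chev.CharTwoInvol.TwMain
import Cfsg.Agent.Chev.CharTwoInvol.DataTwE6
import Cfsg.Agent.Chev.ValidE6

/-! The kernel checks of the orbit tables for `E6`. -/

set_option autoImplicit false
set_option maxRecDepth 100000
set_option maxHeartbeats 4000000

namespace CfsgLib.Chev.CharTwoInvol.TabTwE6

theorem sym_ok : symOK CfsgLib.Chev.DataE6.tbl sym = true := by decide +kernel

theorem normal_ok : twNormalOK CfsgLib.Chev.DataE6.tbl sym states = true := by decide +kernel

theorem reduce_ok : twReduceOK CfsgLib.Chev.DataE6.tbl sym states fins reds = true := by decide +kernel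

theorem fins_ok : finsOK CfsgLib.Chev.DataE6.tbl masks fins certs = true := by decide +kernel

end CfsgLib.Chev.CharTwoInvol.TabTwE6
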