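import Cfsg.Agent.Chev.CharTwoInvol.Pairs

/-!
# The coefficient of a root that is not a combination of the others
-/

set_option autoImplicit false

namespace CfsgLib.Chev.CharTwoInvol

open Cfsg.Lie Matrix CfsgLib.Chev

universe u

variable {D : ChevalleyDatum} (S : Sys.{u} D) {F : Type u} [Field F]

/-- The root `x` of the closed set `P` is no combination of two of its members. -/
structure IsTop (P : ℕ → Prop) (x : ℕ) : Prop where
  closed : S.IsClosedRootSet P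
  mem : P x
  pos : D.nroots / 2 ≤ x ∧ x < D.nroots
  indec : ∀ r s, D.nroots / 2 ≤ r → r < D.nroots → D.nroots / 2 ≤ s → s < D.nroots → P r → P s →
    ∀ i j : ℤ, 1 ≤ i → 1 ≤ j → ¬ ∀ a < D.rank, S.vec x a = i * S.vec r a + j * S.vec s a

variable {P : ℕ → Prop} {x : ℕ}

theorem IsTop.closed_del (h : IsTop S P x) : S.IsClosedRootSet (fun r => P r ∧ r ≠ x) := by
  intro r s v hr hr2 hs hs2 hv hv2 h1 h2 h3
  refine ⟨h.closed r s v hr hr2 hs hs2 hv hv2 h1.1 h2.1 h3, fun e => ?_⟩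
  obtain ⟨i, j, hi, hj, hv'⟩ := h3
  exact h.indec r s hr hr2 hs hs2 h1.1 h2.1 i j hi hj (e ▸ hv')

theorem IsTop.norm (h : IsTop S P x) : ∀ s v : ℕ, D.nroots / 2 ≤ s → s < D.nroots → (P s ∧ s ≠ x) →
    D.nroots / 2 ≤ v → v < D.nroots →
    (∃ i j : ℤ, 1 ≤ i ∧ 1 ≤ j ∧ ∀ a < D.rank, S.vec v a = i * S.vec x a + j * S.vec s a) →
    (P v ∧ v ≠ x) := by
  intro s v hs hs2 hsP hv hv2 hcomb
  refine ⟨h.closed x s v h.pos.1 h.pos.2 hs hs2 hv hv2 h.mem hsP.1 hcomb, fun e => ?_⟩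
  obtain ⟨i, j, hi, hj, hv'⟩ := hcomb
  exact h.indec x s h.pos.1 h.pos.2 hs hs2 h.mem hsP.1 i j hi hj (e ▸ hv')

/-- The coefficient. -/
noncomputable def kap (P : ℕ → Prop) (x : ℕ) (u : GL D.Idx F) : F :=
  haveI := Classical.propDecidable (∃ c : F, ∃ y ∈ S.genBy F (fun r => P r ∧ r ≠ x), u = S.xU x c * y)
  if h : ∃ c : F, ∃ y ∈ S.genBy F (fun r => P r ∧ r ≠ x), u = S.xU x c * y then h.choose else 0

theorem kap_eq (h : IsTop S P x) {u : GL D.Idx F} {c : F} {y : GL D.Idx F}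
    (hy : y ∈ S.genBy F (fun r => P r ∧ r ≠ x)) (e : u = S.xU x c * y) : kap S P x u = c := by
  have hex : ∃ c : F, ∃ y ∈ S.genBy F (fun r => P r ∧ r ≠ x), u = S.xU x c * y := ⟨c, y, hy, e⟩
  rw [kap, dif_pos hex]
  obtain ⟨y', hy', e'⟩ := hex.choose_spec
  have hd : S.xU x (-c + hex.choose) = y * y'⁻¹ := by
    rw [← S.xU_add, ← S.xU_inv, eq_mul_inv_iff_mul_eq, mul_assoc, ← e', e, inv_mul_cancel_left]
  have := coef_zero S h.closed_del h.pos.1 h.pos.2 (fun k => k.2 rfl)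
    (hd ▸ mul_mem hy (inv_mem hy') : S.xU x (-c + hex.choose) ∈ S.genBy F (fun r => P r ∧ r ≠ x))
  linear_combination this

theorem kap_split (h : IsTop S P x) {u : GL D.Idx F} (hu : u ∈ S.genBy F P) :
    ∃ y ∈ S.genBy F (fun r => P r ∧ r ≠ x), u = S.xU x (kap S P x u) * y := by
  obtain ⟨c, y, hy, e⟩ := exists_split S h.pos.1 h.pos.2 (P := P) (fun k => k.2 rfl)
    (fun r _ _ hr => by
      by_cases e : r = x
      · exact Or.inl e
      · exact Or.inr ⟨hr, e⟩) h.norm hu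
  exact ⟨y, hy, (kap_eq S h hy e).symm ▸ e⟩

theorem kap_mul (h : IsTop S P x) {u v : GL D.Idx F} (hu : u ∈ S.genBy F P) (hv : v ∈ S.genBy F P) :
    kap S P x (u * v) = kap S P x u + kap S P x v := by
  obtain ⟨y, hy, e⟩ := kap_split S h hu
  obtain ⟨z, hz, e'⟩ := kap_split S h hv
  refine kap_eq S h (mul_mem (conj_genBy' S h.pos.1 h.pos.2 (fun k => k.2 rfl) h.norm
    (kap S P x v) hy) hz) ?_
  conv_lhs => rw [e, e']
  rw [← S.xU_add]
  group

theorem kap_one (h : IsTop S P x) : kap S P x (1 : GL D.Idx F) = 0 :=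
  kap_eq S h (one_mem _) (by rw [S.xU_zero, one_mul])

theorem kap_inv (h : IsTop S P x) {u : GL D.Idx F} (hu : u ∈ S.genBy F P) :
    kap S P x u⁻¹ = - kap S P x u := by
  have e := kap_mul S h (inv_mem hu) hu
  rw [inv_mul_cancel, kap_one S h] at e
  linear_combination -e

theorem kap_xU_self (h : IsTop S P x) (t : F) : kap S P x (S.xU x t) = t :=
  kap_eq S h (one_mem _) (mul_one _).symm

theorem kap_xU_ne (h : IsTop S P x) {r : ℕ} (h1 : D.nroots / 2 ≤ r) (h2 : r < D.nroots) (hr : P r)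
    (hne : r ≠ x) (t : F) : kap S P x (S.xU r t) = 0 :=
  kap_eq S h (S.xU_mem_genBy h1 h2 ⟨hr, hne⟩ t) (by rw [S.xU_zero, one_mul])

theorem kap_mem (h : IsTop S P x) {u : GL D.Idx F} (hu : u ∈ S.genBy F P) (h0 : kap S P x u = 0) :
    u ∈ S.genBy F (fun r => P r ∧ r ≠ x) := by
  obtain ⟨y, hy, e⟩ := kap_split S h hu
  rw [e, h0, S.xU_zero, one_mul]
  exact hy

/-- A homomorphism carrying the roots of `P` by `p`. -/
theorem kap_map (h : IsTop S P x) {p : ℕ → ℕ} {f : F →+* F} (hx : IsTop S P (p x))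
    (g : GL D.Idx F →* GL D.Idx F) (hg : ∀ r, P r → ∀ t, g (S.xU r t) = S.xU (p r) (f t))
    (hp : ∀ r, P r → P (p r)) (hpP : ∀ r, P r → D.nroots / 2 ≤ r ∧ r < D.nroots)
    (hinj : ∀ r, P r → p r = p x → r = x) {u : GL D.Idx F} (hu : u ∈ S.genBy F P) :
    kap S P (p x) (g u) = f (kap S P x u) := by
  obtain ⟨y, hy, e⟩ := kap_split S h hu
  have hgy : g y ∈ S.genBy F (fun r => P r ∧ r ≠ p x) := by
    have : S.genBy F (fun r => P r ∧ r ≠ x) ≤ (S.genBy F (fun r => P r ∧ r ≠ p x)).comap g :=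
      S.genBy_le fun r h1 h2 h3 t => by
        show g (S.xU r t) ∈ S.genBy F (fun r => P r ∧ r ≠ p x)
        rw [hg r h3.1]
        exact S.xU_mem_genBy (P := fun r => P r ∧ r ≠ p x) (hpP _ (hp r h3.1)).1 (hpP _ (hp r h3.1)).2
          ⟨hp r h3.1, fun k => h3.2 (hinj r h3.1 k)⟩ _
    exact this hy
  refine kap_eq S hx hgy ?_
  conv_lhs => rw [e, map_mul, hg x h.mem]

end CfsgLib.Chev.CharTwoInvol
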