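import Cfsg.Agent.Chev.CharTwoInvol.ChecksTwE6
import Cfsg.Agent.Chev.Twisted.E6

/-!
# The classes of involutions of ²E₆(q), q even
-/

set_option autoImplicit false
set_option maxRecDepth 100000

namespace CfsgLib.Chev.CharTwoInvol.TabTwE6

open Cfsg.Lie Matrix CfsgLib.Chev

universe u

variable {K : Type u} [Field K] [Fintype K] [CharP K 2] {q : ℕ}

theorem sym_rho : sym.rho = Twisted.E6.rhoL := by decide +kernel

theorem sym_mem : sym.mem = Twisted.E6.memL := by decide +kernel

theorem img_eq (r : ℕ) : sym.img r = Twisted.E6.graph.rho r := by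
  rw [Sym.img, sym_rho]; rfl

theorem sym_spec {r : ℕ} (hr : r < DataE6.tbl.n) :
    commEven DataE6.tbl r (sym.img r) = true ∧
      ∀ a < DataE6.tbl.l, DataE6.tbl.vecAt (sym.img r) a = DataE6.tbl.vecAt r (sym.tau.getD a 0) ∧
        sym.tau.getD a 0 < DataE6.tbl.l := by
  have h := sym_ok
  simp only [symOK, Bool.and_eq_true, List.all_eq_true, List.mem_range, decide_eq_true_eq] at h
  exact ⟨(h.1 r hr).1.2, fun a ha => ⟨((h.1 r hr).2 a ha).1, Nat.le_of_ble_eq_true ((h.1 r hr).2 a ha).2⟩⟩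

theorem long_spec : (∀ x ∈ sym.word sym.long, x < DataE6.tbl.l) ∧
    ∀ r < DataE6.tbl.n, r < DataE6.tbl.n / 2 →
      DataE6.tbl.n / 2 ≤ wAct DataE6.tbl (sym.word sym.long) r := by
  have h := sym_ok
  simp only [symOK, Bool.and_eq_true, List.all_eq_true, List.mem_range, Bool.or_eq_true] at h
  refine ⟨fun x hx => Nat.le_of_ble_eq_true (h.2.1 x hx), fun r hr hlt => ?_⟩
  rcases h.2.2 r hr with k | k
  · exact absurd (Nat.le_of_ble_eq_true k) (not_le.2 hlt)
  · exact Nat.le_of_ble_eq_true k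

variable (hq : IsPrimePow q) (hK : Fintype.card K = q ^ 2)

include hq hK in
theorem exists_trace_one : ∃ θ : K, θ + Twisted.E6.phi hq hK θ = 1 := by
  classical
  set φ := Twisted.E6.phi hq hK
  have h2 : ∀ t, φ (φ t) = t := fun t => by
    rw [Twisted.E6.phi_apply, Twisted.E6.phi_apply, ← pow_mul, ← pow_two, ← hK, FiniteField.pow_card]
  obtain ⟨y, hy⟩ : ∃ y : K, y + φ y ≠ 0 := by
    by_contra hcon
    push Not at hcon
    have hfix : ∀ t : K, t ^ q = t := fun t => by
      rw [← Twisted.E6.phi_apply hq hK]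
      exact (CharTwo.add_eq_zero.1 (hcon t)).symm
    have hp : (Polynomial.X ^ q - Polynomial.X : Polynomial K) ≠ 0 :=
      FiniteField.X_pow_card_sub_X_ne_zero K hq.one_lt
    have hsub : (Finset.univ : Finset K) ⊆ (Polynomial.X ^ q - Polynomial.X : Polynomial K).roots.toFinset :=
      fun t _ => by
        rw [Multiset.mem_toFinset, Polynomial.mem_roots hp, Polynomial.IsRoot.def]
        simp [hfix t]
    have := (Finset.card_le_card hsub).trans
      ((Multiset.toFinset_card_le _).trans (Polynomial.card_roots' _))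
    rw [Finset.card_univ, hK, FiniteField.X_pow_card_sub_X_natDegree_eq K hq.one_lt] at this
    have := hq.two_le
    nlinarith
  refine ⟨y / (y + φ y), ?_⟩
  rw [map_div₀, map_add, h2, add_comm (φ y) y, ← add_div, div_self hy]

/-- An element of trace one. -/
noncomputable def theta : K := (exists_trace_one hq hK).choose

/-- The twisted group as the fixed group of the graph symmetry. -/
noncomputable def ctx : TwCtx (Tbl.Valid.toSys.{u} DataE6.valid) K where
  G1 := twistedE6 K q
  sg := Twisted.E6.graph.sigma (Twisted.E6.phi hq hK)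
  φ := Twisted.E6.phi hq hK
  rho := sym.img
  θ := theta hq hK
  sg_xU r hr t := by
    rw [Twisted.E6.graph.sigma_xU (Tbl.Valid.toSys.{u} DataE6.valid) _ hr,
      cast_unit_eq_one (Twisted.E6.graph.eps_unit r hr), one_mul, img_eq]
  φ_φ t := by
    rw [Twisted.E6.phi_apply, Twisted.E6.phi_apply, ← pow_mul, ← pow_two, ← hK, FiniteField.pow_card]
  θ_spec := (exists_trace_one hq hK).choose_spec
  rho_lt r hr := by rw [img_eq]; exact Twisted.E6.graph.rho_lt r hr
  rho_rho r hr := by
    have h := sym_ok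
    simp only [symOK, Bool.and_eq_true, List.all_eq_true, List.mem_range] at h
    exact Nat.eq_of_beq_eq_true (h.1 r (DataE6.valid.linked.nroots ▸ hr)).1.1.1.1.2
  rho_pos r hr := by rw [img_eq]; exact Twisted.E6.graph.rho_pos r hr
  rho_comm r hr t v := by
    have hr' : r < DataE6.tbl.n := DataE6.valid.linked.nroots ▸ hr
    refine commute_xU DataE6.valid hr' ?_ (sym_spec hr').1 t v
    rw [← DataE6.valid.linked.nroots, img_eq]
    exact Twisted.E6.graph.rho_lt r hr
  rho_lin r s v hr hs hv i j h a ha := by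
    have hl : a < DataE6.tbl.l := DataE6.valid.linked.rank ▸ ha
    obtain ⟨e1, ht⟩ := (sym_spec (r := v) (DataE6.valid.linked.nroots ▸ hv)).2 a hl
    obtain ⟨e2, -⟩ := (sym_spec (r := r) (DataE6.valid.linked.nroots ▸ hr)).2 a hl
    obtain ⟨e3, -⟩ := (sym_spec (r := s) (DataE6.valid.linked.nroots ▸ hs)).2 a hl
    show DataE6.tbl.vecAt (sym.img v) a = i * DataE6.tbl.vecAt (sym.img r) a + j * DataE6.tbl.vecAt (sym.img s) a
    rw [e1, e2, e3]
    exact h _ (DataE6.valid.linked.rank ▸ ht)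
  fixed g hg := (Twisted.E6.gdata hq hK).G1_le_Fx hg
  le_group := by
    refine (Subgroup.closure_le _).2 ?_
    rintro g ⟨w, -, hw⟩
    rw [show g = (Tbl.Valid.toSys.{u} DataE6.valid).wU w from
      Units.ext (hw.trans ((Tbl.Valid.toSys.{u} DataE6.valid).coe_wU _).symm)]
    exact (Tbl.Valid.toSys.{u} DataE6.valid).wU_mem_group _
  of_pos g hg hfix := (Twisted.E6.gdata hq hK).U1_le (Subgroup.mem_inf.2 ⟨hg, hfix⟩)
  of_neg g hg hfix := by
    set N := (Tbl.Valid.toSys.{u} DataE6.valid).nw K (sym.word sym.long) with hN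
    have hNG : N ∈ twistedE6 K q := word_mem hq hK sym.long long_spec.1
    have hpos : N * g * N⁻¹ ∈ chevE6.posUnipotent K := by
      have : chevE6.negUnipotent K ≤
          (chevE6.posUnipotent K).comap (MulAut.conj N).toMonoidHom := by
        refine (Subgroup.closure_le _).2 ?_
        rintro x ⟨r, v, hr, hx⟩
        obtain rfl : x = (Tbl.Valid.toSys.{u} DataE6.valid).xU r v :=
          Units.ext (hx.trans ((Tbl.Valid.toSys.{u} DataE6.valid).coe_xU r v).symm)
        have hr' := ((Tbl.Valid.toSys.{u} DataE6.valid).isNeg_iff r).1 hr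
        have hn : r < DataE6.tbl.n := DataE6.valid.linked.nroots ▸ (by omega : r < chevE6.nroots)
        show N * (Tbl.Valid.toSys.{u} DataE6.valid).xU r v * N⁻¹ ∈ chevE6.posUnipotent K
        rw [hN, nw_xU DataE6.valid long_spec.1 hn]
        refine (Tbl.Valid.toSys.{u} DataE6.valid).xU_mem_posUnipotent ?_
          (lt_nroots DataE6.valid (wAct_lt DataE6.valid long_spec.1 hn)) v
        have := long_spec.2 r hn (by have := DataE6.valid.linked.nroots; omega)
        have := DataE6.valid.linked.nroots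
        omega
      exact this hg
    have hfixN : Twisted.E6.graph.sigma (Twisted.E6.phi hq hK) (N * g * N⁻¹) = N * g * N⁻¹ := by
      rw [map_mul, map_mul, map_inv, hfix,
        show Twisted.E6.graph.sigma (Twisted.E6.phi hq hK) N = N from
          (Twisted.E6.gdata hq hK).G1_le_Fx hNG]
    have h := (Twisted.E6.gdata hq hK).U1_le (Subgroup.mem_inf.2 ⟨hpos, hfixN⟩)
    have h' : N * g * N⁻¹ ∈ twistedE6 K q := h
    have := mul_mem (mul_mem (inv_mem hNG) h') hNG
    rwa [show N⁻¹ * (N * g * N⁻¹) * N = g by group] at this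
where
  word_mem (hq : IsPrimePow q) (hK : Fintype.card K = q ^ 2) (L : List ℕ)
      (hL : ∀ x ∈ sym.word L, x < DataE6.tbl.l) :
      (Tbl.Valid.toSys.{u} DataE6.valid).nw K (sym.word L) ∈ twistedE6 K q := by
    clear hL
    induction L with
    | nil => exact one_mem _
    | cons j L ih =>
      rw [show sym.word (j :: L) = sym.mem.getD j [] ++ sym.word L from List.flatMap_cons,
        Sys.nw_append]
      refine mul_mem ?_ ih
      by_cases hj : j < 4
      · have : sym.mem.getD j [] = List.ofFn ((Twisted.E6.orbits.{u}).mem ⟨j, hj⟩) := by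
          interval_cases j <;> rfl
        rw [this]
        have h := (Twisted.E6.gdata hq hK).nJ_mem ⟨j, hj⟩
        exact (Twisted.Orbits.nJ_eq_nw (Twisted.E6.orbits.{u}) (F := K) ⟨j, hj⟩) ▸ h
      · rw [List.getD_eq_default _ _ (by rw [sym_mem]; show 4 ≤ j; omega)]
        exact one_mem _

theorem agree : TwAgree DataE6.valid sym (ctx hq hK) :=
  ⟨fun _ => rfl, fun L hL => ctx.word_mem hq hK L hL⟩

include hq hK in
theorem sylow {g : GL chevE6.Idx K} (hg : g ∈ twistedE6 K q) (hsq : g * g = 1) :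
    ∃ h ∈ twistedE6 K q, h * g * h⁻¹ ∈ chevE6.posUnipotent K := by
  haveI : Fact (Nat.Prime 2) := ⟨Nat.prime_two⟩
  haveI := Sys.finite_GL (D := chevE6) (F := K)
  set G := twistedE6 K q
  set U := (chevE6.posUnipotent K ⊓ G).subgroupOf G
  obtain ⟨k, hk⟩ : ∃ k, q = 2 ^ k := by
    obtain ⟨n, -, hn⟩ := FiniteField.card K 2
    rw [hK] at hn
    exact ((Nat.dvd_prime_pow Nat.prime_two).1 (hn ▸ dvd_pow_self q two_ne_zero)).imp fun _ h => h.2
  have hU : Nat.card U = 2 ^ (k * 36) := by
    rw [Nat.card_congr (Subgroup.subgroupOfEquivOfLe inf_le_right).toEquiv,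
      Twisted.E6.card_U1 hq hK, hk, pow_mul]
  have hidx : ¬ 2 ∣ U.index := by
    intro hd
    have hc := U.card_mul_index
    rw [hU, pow_mul, ← hk] at hc
    have h := Twisted.E6.card_group hq hK
    rw [show Nat.card G = Nat.card (twistedE6 K q) from rfl] at hc
    rw [← hc, mul_left_comm, mul_assoc, mul_assoc, mul_assoc, mul_assoc, mul_assoc] at h
    have h' := Nat.eq_of_mul_eq_mul_left (Nat.pow_pos hq.pos) h
    have hev : Even q := by
      rcases Nat.eq_zero_or_pos k with rfl | hk0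
      · exact absurd hk hq.one_lt.ne'
      · rw [hk]; exact Nat.even_pow.2 ⟨even_two, hk0.ne'⟩
    have hev' : Even (Nat.gcd 3 (q + 1) * U.index) := (even_iff_two_dvd.2 hd).mul_left _
    rw [h'] at hev'
    have hp : ∀ n, n ≠ 0 → Even (q ^ n) := fun n hn => Nat.even_pow.2 ⟨hev, hn⟩
    have o : ∀ n, n ≠ 0 → ¬ Even (q ^ n - 1) := fun n hn => by
      rw [Nat.even_sub (Nat.one_le_pow _ _ hq.pos)]; simp [hp n hn]
    have o' : ∀ n, n ≠ 0 → ¬ Even (q ^ n + 1) := fun n hn => by
      rw [Nat.even_add]; simp [hp n hn]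
    simp only [Nat.even_mul, o 2 two_ne_zero, o' 5 (by norm_num), o 6 (by norm_num), o 8 (by norm_num),
      o' 9 (by norm_num), o 12 (by norm_num), or_self] at hev'
  set P₀ : Sylow 2 G := (IsPGroup.of_card hU).toSylow hidx
  have hsq' : (⟨g, hg⟩ : G) * ⟨g, hg⟩ = 1 := Subtype.ext hsq
  have hz : IsPGroup 2 (Subgroup.zpowers (⟨g, hg⟩ : G)) := fun x => by
    obtain ⟨i, hi⟩ := x.2
    refine ⟨1, Subtype.ext ?_⟩
    show (x : G) ^ (2 ^ 1) = 1
    rw [← hi, pow_one, ← zpow_natCast, ← _root_.zpow_mul, mul_comm, _root_.zpow_mul, zpow_natCast,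
      pow_two, hsq', _root_.one_zpow]
  obtain ⟨P, hP⟩ := hz.exists_le_sylow
  obtain ⟨d, hd⟩ := MulAction.exists_smul_eq G P₀ P
  have h1 : (⟨g, hg⟩ : G) ∈ (P : Subgroup G) := hP (Subgroup.mem_zpowers _)
  rw [← hd, Sylow.coe_subgroup_smul, Subgroup.mem_pointwise_smul_iff_inv_smul_mem] at h1
  have h2 : (MulAut.conj d)⁻¹ (⟨g, hg⟩ : G) ∈ U := h1
  have h3 : ((d⁻¹ * ⟨g, hg⟩ * d : G) : GL chevE6.Idx K) ∈ chevE6.posUnipotent K := by
    have := (Subgroup.mem_inf.1 (Subgroup.mem_subgroupOf.1 h2)).1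
    simpa using this
  exact ⟨(d⁻¹ : G), (d⁻¹).2, by simpa using h3⟩

include hK in
/-- ²E₆(q) has three classes of involutions for even `q`. -/
theorem count : (ConjClasses.mk '' {g : ↥(twistedE6 K q) | orderOf g = 2}).ncard = 3 := by
  have hq : IsPrimePow q := by
    obtain ⟨n, -, hn⟩ := FiniteField.card K 2
    rw [hK] at hn
    obtain ⟨k, -, hk⟩ := (Nat.dvd_prime_pow Nat.prime_two).1 (hn ▸ dvd_pow_self q two_ne_zero)
    refine ⟨2, k, Nat.prime_two.prime, ?_, hk.symm⟩
    by_contra h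
    rw [show k = 0 by omega, pow_zero] at hk
    rw [hk, one_pow] at hn
    have := n.pos
    exact absurd hn.symm (Nat.one_lt_two_pow (by omega)).ne'
  exact (tw_classes_count DataE6.valid normal_ok reduce_ok fins_ok (ctx hq hK) (agree hq hK)
    fun g hg hsq => sylow hq hK hg hsq).trans rfl

end CfsgLib.Chev.CharTwoInvol.TabTwE6
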