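import Cfsg.Agent.Chev.CharTwoInvol.TwNormal

/-!
# Twisted groups: the classes of involutions from the tables
-/

set_option autoImplicit false

namespace CfsgLib.Chev.CharTwoInvol

open Cfsg.Lie Matrix CfsgLib.Chev

universe u

variable {D : ChevalleyDatum} {T : Tbl} (hV : T.Valid D) {F : Type u} [Field F] [CharP F 2]

include hV

theorem pev_polyOne (a b : F) : pev a b polyOne = 1 := by simp [pev, polyOne]

theorem wU_oneWord (a b : F) (L : List ℕ) :
    (Tbl.Valid.toSys.{u} hV).wU (wordVal a b (oneWord L)) = wOne hV F L := by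
  rw [wOne, wordVal, oneWord, List.map_map]
  congr 1
  refine List.map_congr_left fun r _ => ?_
  simp [pev, polyOne]

/-- A chain of conjugations in the fixed group. -/
theorem tw_chain_sound {G : Sym} (C : TwCtx (Tbl.Valid.toSys.{u} hV) F) (hA : TwAgree hV G C) :
    ∀ (ms : List TwMove) (L : List ℕ), twChainOK T G ms L = true →
      ∃ h ∈ C.G1, h * wOne hV F L * h⁻¹ = wOne hV F (twChainEnd ms L) := by
  intro ms
  induction ms with
  | nil => exact fun L _ => ⟨1, one_mem _, by simp [twChainEnd]⟩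
  | cons m ms ih =>
    intro L h
    cases m with
    | weyl w t =>
      simp only [twChainOK, Bool.and_eq_true, List.all_eq_true] at h
      obtain ⟨⟨⟨⟨hw, hL⟩, hc⟩, hp⟩, hrest⟩ := h
      obtain ⟨g, hg, e⟩ := ih t hrest
      have hw' : ∀ q ∈ G.word w, q < T.l := fun q hq => Nat.le_of_ble_eq_true (hw q hq)
      refine ⟨g * (Tbl.Valid.toSys.{u} hV).nw F (G.word w), mul_mem hg (hA.word _ hw'), ?_⟩
      show _ = wOne hV F (twChainEnd ms t)
      rw [← e, ← wOne_perm hV hc (List.isPerm_iff.1 hp),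
        ← nw_wOne hV hw' (fun r hr => Nat.le_of_ble_eq_true (hL r hr))]
      group
    | word w t =>
      simp only [twChainOK, Bool.and_eq_true, List.all_eq_true] at h
      obtain ⟨g, hg, e⟩ := ih t h.2
      have hwG : ∀ w' : List ℕ, (∀ r ∈ w', r < T.n) → wOne hV F (w'.flatMap G.orb) ∈ C.G1 := by
        intro w'
        induction w' with
        | nil => intro _; exact one_mem _
        | cons r w' ihw =>
          intro hr
          rw [List.flatMap_cons, wOne_append, orb_one hV hA]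
          exact mul_mem (C.ox_mem (lt_nroots hV (hr r (by simp))) fun _ => map_one _)
            (ihw fun x hx => hr x (by simp [hx]))
      have e2 := wOne_eq_of_sameBits hV (F := F) h.1.2
      rw [wOne_append, wOne_append] at e2
      set W := wOne hV F (w.flatMap G.orb) with hW
      refine ⟨g * W, mul_mem hg (hwG w fun r hr => Nat.le_of_ble_eq_true (h.1.1 r hr)), ?_⟩
      show _ = wOne hV F (twChainEnd ms t)
      rw [← e, show g * W * wOne hV F L * (g * W)⁻¹ = g * (W * wOne hV F L * W⁻¹) * g⁻¹ by group, e2,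
        mul_inv_cancel_right]
    | trace r t =>
      simp only [twChainOK, Bool.and_eq_true, Bool.not_eq_true'] at h
      obtain ⟨⟨⟨hr, hne⟩, hsame⟩, hrest⟩ := h
      obtain ⟨g, hg, e⟩ := ih t hrest
      have e2 := wU_eq_of_sameWordMod (F := F) (p := 2) hV C.θ 0 hsame
      rw [wordVal, wordVal, List.map_append, List.map_append, Sys.wU_append, Sys.wU_append] at e2
      change (Tbl.Valid.toSys.{u} hV).wU (wordVal C.θ 0 (traceWord G r)) *
          (Tbl.Valid.toSys.{u} hV).wU (wordVal C.θ 0 (oneWord L)) =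
        (Tbl.Valid.toSys.{u} hV).wU (wordVal C.θ 0 (oneWord t)) *
          (Tbl.Valid.toSys.{u} hV).wU (wordVal C.θ 0 (traceWord G r)) at e2
      rw [wU_oneWord hV, wU_oneWord hV] at e2
      have hne' : C.rho r ≠ r := fun k => by
        rw [hA.img] at k
        rw [k, show Nat.beq r r = true from Nat.beq_refl _] at hne
        exact absurd hne (by decide)
      have hW : (Tbl.Valid.toSys.{u} hV).wU (wordVal C.θ 0 (traceWord G r)) = C.ox r C.θ := by
        have hφ : C.φ C.θ = 1 + C.θ := by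
          rw [← CharTwo.sub_eq_add]; linear_combination C.θ_spec
        unfold TwCtx.ox
        rw [if_neg hne', hA.img, hφ]
        simp [traceWord, wordVal, Sys.wU, pev, polyT, polyOne]
      rw [hW] at e2
      refine ⟨g * C.ox r C.θ,
        mul_mem hg (C.ox_mem (lt_nroots hV (Nat.le_of_ble_eq_true hr)) fun k => absurd k hne'), ?_⟩
      show _ = wOne hV F (twChainEnd ms t)
      rw [← e, show g * C.ox r C.θ * wOne hV F L * (g * C.ox r C.θ)⁻¹ =
        g * (C.ox r C.θ * wOne hV F L * (C.ox r C.θ)⁻¹) * g⁻¹ by group, e2, mul_inv_cancel_right]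

/-- Every involution of the fixed group is conjugate there to the product over a state. -/
theorem tw_exists_state [Finite F] {G : Sym} {sts : List TwState} (hOK : twNormalOK T G sts = true)
    (C : TwCtx (Tbl.Valid.toSys.{u} hV) F) (hA : TwAgree hV G C)
    (hsyl : ∀ g ∈ C.G1, g * g = 1 → ∃ h ∈ C.G1, h * g * h⁻¹ ∈ D.posUnipotent F) {g : GL D.Idx F}
    (hg : g ∈ C.G1) (hsq : g * g = 1) (hg1 : g ≠ 1) :
    ∃ j, 0 < j ∧ j < sts.length ∧ ∃ h ∈ C.G1,
      h * g * h⁻¹ = wOne hV F (sts.getD j ⟨[], []⟩).roots := by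
  classical
  simp only [twNormalOK, Bool.and_eq_true, List.all_eq_true, List.mem_range, List.isEmpty_iff] at hOK
  obtain ⟨⟨⟨hsym, h0⟩, hroot0⟩, hst⟩ := hOK
  have key : ∀ d i, sts.length - i = d → i < sts.length → ∀ f ∈ (Tbl.Valid.toSys.{u} hV).genBy F
      (fun r => psi T (sts.getD i ⟨[], []⟩).roots r = true), C.sg f = f → f * f = 1 →
      (i = 0 → f ≠ 1) →
      ∃ j, 0 < j ∧ j < sts.length ∧ ∃ h ∈ C.G1,
        h * (wOne hV F (sts.getD i ⟨[], []⟩).roots * f) * h⁻¹ =
          wOne hV F (sts.getD j ⟨[], []⟩).roots := by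
    intro d
    induction d using Nat.strong_induction_on with
    | _ d ih =>
    intro i hd hi f hf hfix hfsq hne
    by_cases hf1 : f = 1
    · refine ⟨i, Nat.pos_of_ne_zero fun e => hne e hf1, hi, 1, one_mem _, ?_⟩
      simp [hf1]
    have hok := hst i hi
    obtain ⟨e, he, c, hc, hcφ, v, hv, hvfix, hcj⟩ := tw_descend hV hok hsym C hA hf hfix hf1
    have hok' := hok
    simp only [twStateOK, allComm, Bool.and_eq_true, List.all_eq_true, List.mem_range, Bool.or_eq_true,
      Bool.not_eq_true'] at hok'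
    obtain ⟨⟨hroots, hsteps⟩, hall⟩ := hok'
    have hS : ∀ s ∈ (sts.getD i ⟨[], []⟩).roots, s < T.n := fun s hs =>
      Nat.le_of_ble_eq_true (hroots s hs).1
    have hcm : ∀ r, psi T (sts.getD i ⟨[], []⟩).roots r = true → ∀ s ∈ (sts.getD i ⟨[], []⟩).roots,
        commEven T r s = true := fun r hr s hs => by
      rcases hall r (psi_pos hV hr).2.2 with h | h
      · exact absurd (hr.symm.trans h) (by decide)
      · exact h.1.1 s hs
    have hrho : ∀ r, psi T (sts.getD i ⟨[], []⟩).roots r = true →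
        psi T (sts.getD i ⟨[], []⟩).roots (G.img r) = true := fun r hr => by
      rcases hall r (psi_pos hV hr).2.2 with h | h
      · exact absurd (hr.symm.trans h) (by decide)
      · exact h.1.2
    have hnext : e.next < sts.length := by
      have := hsteps e he
      simp only [twStepOK, Bool.and_eq_true] at this
      exact Nat.le_of_ble_eq_true this.1.1.1.1.1.1.1.1.1.1.2
    have hcc : allComm T (sts.getD e.next ⟨[], []⟩).roots = true := by
      have := hst e.next hnext
      simp only [twStateOK, Bool.and_eq_true] at this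
      exact this.1.1
    obtain ⟨f', hf', hf'fix, hf'sq, hlt, h, hh, he'⟩ :=
      tw_step_reduce hV (hsteps e he) hsym C hA hcm hrho hS hc hcφ hv hvfix (hcj.sq hfsq) hcc
    obtain ⟨j, hj0, hjlt, h2, hh2, he2⟩ := ih (sts.length - e.next) (by omega) e.next rfl hnext f' hf'
      hf'fix hf'sq (fun e0 => by omega)
    obtain ⟨h1, hh1, hz1, he1⟩ := hcj
    refine ⟨j, hj0, hjlt, h2 * h * h1, mul_mem (mul_mem hh2 hh) hh1, ?_⟩
    rw [← he2, ← he', ← he1,
      show h2 * h * h1 * (wOne hV F (sts.getD i ⟨[], []⟩).roots * f) * (h2 * h * h1)⁻¹ =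
        h2 * (h * ((h1 * wOne hV F (sts.getD i ⟨[], []⟩).roots * h1⁻¹) * (h1 * f * h1⁻¹)) * h⁻¹) * h2⁻¹
        by group, hz1.eq, mul_inv_cancel_right]
  obtain ⟨h, hh, hhU⟩ := hsyl g hg hsq
  have hmem : h * g * h⁻¹ ∈ (Tbl.Valid.toSys.{u} hV).genBy F
      (fun r => psi T (sts.getD 0 ⟨[], []⟩).roots r = true) := by
    have hle : D.posUnipotent F ≤ (Tbl.Valid.toSys.{u} hV).genBy F
        (fun r => psi T (sts.getD 0 ⟨[], []⟩).roots r = true) := by
      rw [(Tbl.Valid.toSys.{u} hV).posUnipotent_eq, Sys.tailU, Subgroup.closure_le]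
      rintro x ⟨r, t, h1, h2, rfl⟩
      refine (Tbl.Valid.toSys.{u} hV).xU_mem_genBy h1 h2 ?_ t
      rw [hroot0, psi, List.all_nil, Bool.and_true, Bool.and_eq_true]
      exact ⟨Nat.ble_eq_true_of_le (half_eq hV ▸ h1), Nat.ble_eq_true_of_le (hV.linked.nroots ▸ h2 : r < T.n)⟩
    exact hle hhU
  have hsq' : h * g * h⁻¹ * (h * g * h⁻¹) = 1 := by
    rw [show h * g * h⁻¹ * (h * g * h⁻¹) = h * (g * g) * h⁻¹ by group, hsq]; group
  have hfix' : C.sg (h * g * h⁻¹) = h * g * h⁻¹ := C.fixed _ (mul_mem (mul_mem hh hg) (inv_mem hh))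
  obtain ⟨j, h1, h2, k, hk, hke⟩ := key _ 0 rfl (Nat.le_of_ble_eq_true h0) _ hmem hfix' hsq'
    (fun _ e => hg1 (conj_eq_one_iff.1 e))
  rw [hroot0, wOne_nil, one_mul] at hke
  exact ⟨j, h1, h2, k * h, mul_mem hk hh, by rw [← hke]; group⟩

/-- The number of classes of involutions of the fixed group. -/
theorem tw_classes_count [Finite F] {G : Sym} {sts : List TwState} {red : List (List TwMove × ℕ)}
    {masks : List ℕ} {fins : List (List ℕ)} {certs : List (List (List (ℕ × ℕ × List ℕ)))}
    (hN : twNormalOK T G sts = true) (hR : twReduceOK T G sts fins red = true)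
    (hF : finsOK T masks fins certs = true) (C : TwCtx (Tbl.Valid.toSys.{u} hV) F)
    (hA : TwAgree hV G C)
    (hsyl : ∀ g ∈ C.G1, g * g = 1 → ∃ h ∈ C.G1, h * g * h⁻¹ ∈ D.posUnipotent F) :
    (ConjClasses.mk '' {g : ↥C.G1 | orderOf g = 2}).ncard = fins.length := by
  classical
  simp only [twReduceOK, Bool.and_eq_true, List.all_eq_true, List.mem_range, Bool.or_eq_true,
    decide_eq_true_eq] at hR
  obtain ⟨hfin, hred⟩ := hR
  have hallc : ∀ k < fins.length, allComm T (fins.getD k []) = true := fun k hk => by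
    simp only [finsOK, Bool.and_eq_true, List.all_eq_true, List.mem_range] at hF
    exact (hF.2 k hk).1.1.1.1
  have hmem : ∀ k, k < fins.length → wOne hV F (fins.getD k []) ∈ C.G1 := by
    intro k hk
    have hf : fins.getD k [] ∈ fins := by
      rw [List.getD_eq_getElem?_getD, List.getElem?_eq_getElem hk, Option.getD_some]
      exact List.getElem_mem hk
    obtain ⟨⟨h1, h2⟩, h3⟩ := hfin _ hf
    refine C.of_pos _ ?_ (tw_wOne_fixed hV hA (hallc k hk) (List.isPerm_iff.1 h2))
    rw [wOne, Sys.wU]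
    refine Subgroup.list_prod_mem _ fun x hx => ?_
    simp only [List.map_map, List.mem_map, Function.comp_apply] at hx
    obtain ⟨r, hr, rfl⟩ := hx
    exact (Tbl.Valid.toSys.{u} hV).xU_mem_posUnipotent
      (half_eq hV ▸ Nat.le_of_ble_eq_true (h3 r hr)) (lt_nroots hV (Nat.le_of_ble_eq_true (h1 r hr))) _
  let f : Fin fins.length → ConjClasses ↥C.G1 := fun k => ConjClasses.mk ⟨_, hmem k k.2⟩
  have himg : ConjClasses.mk '' {g : ↥C.G1 | orderOf g = 2} = Set.range f := by
    apply Set.Subset.antisymm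
    · rintro _ ⟨g, hg, rfl⟩
      have h2 : orderOf (g : GL D.Idx F) = 2 := by rw [Subgroup.orderOf_coe]; exact hg
      have hsq : (g : GL D.Idx F) * g = 1 := by rw [← pow_two, ← h2]; exact pow_orderOf_eq_one _
      have hg1 : (g : GL D.Idx F) ≠ 1 := fun e => by simp [e] at h2
      obtain ⟨j, hj0, hjl, h, hh, e⟩ := tw_exists_state hV hN C hA hsyl g.2 hsq hg1
      rcases hred j hjl with h0 | ⟨⟨hc, hk⟩, hend⟩
      · have := Nat.eq_of_beq_eq_true h0
        omega
      · obtain ⟨k, hk', e'⟩ := tw_chain_sound hV C hA _ _ hc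
        refine ⟨⟨_, Nat.le_of_ble_eq_true hk⟩,
          (ConjClasses.mk_eq_mk_iff_isConj.2 (isConj_iff.2 ⟨⟨k * h, mul_mem hk' hh⟩, Subtype.ext ?_⟩)).symm⟩
        show k * h * (g : GL D.Idx F) * (k * h)⁻¹ = wOne hV F (fins.getD _ [])
        rw [← hend, ← e', ← e]
        group
    · rintro _ ⟨k, rfl⟩
      refine ⟨_, ?_, rfl⟩
      show orderOf _ = 2
      rw [← Subgroup.orderOf_coe]
      exact orderOf_wOne hV hF k.2
  rw [himg, Set.ncard_range_of_injective, Nat.card_eq_fintype_card, Fintype.card_fin]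
  intro i j hij
  obtain ⟨c, hc⟩ := isConj_iff.1 (ConjClasses.mk_eq_mk_iff_isConj.1 hij)
  exact Fin.ext ((rep_spec hV (F := F) hF).2 i i.2 j j.2
    ⟨c, C.le_group c.2, congrArg Subtype.val hc⟩)

end CfsgLib.Chev.CharTwoInvol
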