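import Cfsg.Agent.Chev.CharTwoInvol.TwPairs
import Cfsg.Agent.Chev.CharTwoInvol.Main
import Cfsg.Agent.Chev.Special.ModCheck

/-!
# Twisted groups: involutions are conjugate to products over symmetric sets of orthogonal roots
-/

set_option autoImplicit false

namespace CfsgLib.Chev.CharTwoInvol

open Cfsg.Lie Matrix CfsgLib.Chev

universe u

variable {D : ChevalleyDatum} {T : Tbl} (hV : T.Valid D) {F : Type u} [Field F] [CharP F 2]

/-- The context agrees with the tables. -/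
structure TwAgree (G : Sym) (C : TwCtx (Tbl.Valid.toSys.{u} hV) F) : Prop where
  img : ∀ r, C.rho r = G.img r
  word : ∀ L : List ℕ, (∀ q ∈ G.word L, q < T.l) → (Tbl.Valid.toSys.{u} hV).nw F (G.word L) ∈ C.G1

/-- The value of the check of a chain of conjugations in the fixed group. -/
noncomputable def twChainOK (T : Tbl) (G : Sym) : List TwMove → List ℕ → Bool
  | [], _ => true
  | .weyl w t :: ms, L => (G.word w).all (fun q => Nat.blt q T.l) && L.all (fun r => Nat.blt r T.n) &&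
      allComm T t && (L.map (wAct T (G.word w))).isPerm t && twChainOK T G ms t
  | .word w t :: ms, L => w.all (fun r => Nat.blt r T.n) &&
      sameBits T (w.flatMap G.orb ++ L) (t ++ w.flatMap G.orb) && twChainOK T G ms t
  | .trace r t :: ms, L => Nat.blt r T.n && !Nat.beq (G.img r) r &&
      sameWordMod 2 T (traceWord G r ++ oneWord L) (oneWord t ++ traceWord G r) && twChainOK T G ms t

/-- The check that each state is carried to one of the representatives. -/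
noncomputable def twReduceOK (T : Tbl) (G : Sym) (sts : List TwState) (fins : List (List ℕ))
    (red : List (List TwMove × ℕ)) : Bool :=
  (fins.all fun f => f.all (fun r => Nat.blt r T.n) && (f.map G.img).isPerm f &&
    f.all fun r => Nat.ble (T.n / 2) r) &&
  (List.range sts.length).all fun i => Nat.beq i 0 ||
    (let c := red.getD i ([], 0)
     let L := (sts.getD i ⟨[], []⟩).roots
     twChainOK T G c.1 L && Nat.blt c.2 fins.length && decide (twChainEnd c.1 L = fins.getD c.2 []))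

include hV

omit [CharP F 2] in
theorem lev_levT (r : ℕ) : (Tbl.Valid.toSys.{u} hV).lev r = levT T r := by
  rw [Sys.lev, levT, sum_range_list, hV.linked.rank]
  rfl

theorem tw_wOne_fixed {G : Sym} {C : TwCtx (Tbl.Valid.toSys.{u} hV) F} (hA : TwAgree hV G C)
    {L : List ℕ} (hc : allComm T L = true) (hp : (L.map G.img).Perm L) :
    C.sg (wOne hV F L) = wOne hV F L := by
  have e : ∀ L' : List ℕ, (∀ r ∈ L', r < T.n) → C.sg (wOne hV F L') = wOne hV F (L'.map G.img) := by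
    intro L'
    induction L' with
    | nil => intro _; simp [wOne_nil]
    | cons r L' ih =>
      intro h
      rw [List.map_cons, wOne_cons, wOne_cons, map_mul, ih fun x hx => h x (by simp [hx]),
        C.sg_xU r (lt_nroots hV (h r (by simp))), map_one, hA.img]
  rw [e L fun r hr => by
    simp only [allComm, List.all_eq_true, Bool.and_eq_true] at hc
    exact Nat.le_of_ble_eq_true (hc r hr).1]
  exact wOne_perm hV hc hp

theorem orb_one {G : Sym} {C : TwCtx (Tbl.Valid.toSys.{u} hV) F} (hA : TwAgree hV G C) (r : ℕ) :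
    wOne hV F (G.orb r) = C.ox r 1 := by
  unfold TwCtx.ox
  rw [hA.img, Sym.orb]
  by_cases h : G.img r = r
  · rw [if_pos h, show Nat.beq (G.img r) r = true by rw [h]; exact Nat.beq_refl r, cond_true,
      wOne_cons, wOne_nil, mul_one]
  · rw [if_neg h, show Nat.beq (G.img r) r = false by
      rw [← Bool.not_eq_true]; exact fun e => h (Nat.eq_of_beq_eq_true e), cond_false,
      wOne_cons, wOne_cons, wOne_nil, mul_one, map_one]

theorem twStep_closed {G : Sym} {sts : List TwState} {i : ℕ} {st : TwState} {e : TwStep}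
    (he : twStepOK T G sts i st e = true) (hS : ∀ s ∈ st.roots, s < T.n)
    (hsym : symOK T G = true) (C : TwCtx (Tbl.Valid.toSys.{u} hV) F) (hA : TwAgree hV G C) :
    IsTop (Tbl.Valid.toSys.{u} hV) (fun r => psi T st.roots r = true) e.root ∧
      IsTop (Tbl.Valid.toSys.{u} hV) (fun r => psi T st.roots r = true) (G.img e.root) := by
  simp only [twStepOK, Bool.and_eq_true, List.all_eq_true, List.mem_range, Bool.or_eq_true,
    Bool.not_eq_true'] at he
  obtain ⟨⟨⟨⟨⟨⟨⟨⟨⟨⟨⟨⟨⟨⟨⟨⟨hp1, hb1⟩, hp2⟩, hb2⟩, -⟩, -⟩, -⟩, hρ⟩, hρ'⟩, -⟩, -⟩, hneg⟩, hneg'⟩, -⟩, -⟩, -⟩, hall⟩ := he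
  set ρ := e.root
  set ρ' := G.img e.root
  have hL : ∀ q ∈ e.refl G, q < T.l := by
    intro q hq
    rw [TwStep.refl] at hq
    rcases List.mem_append.1 hq with h | h
    · simp only [List.mem_append, List.mem_singleton, List.mem_reverse] at h
      rcases h with (h | rfl) | h
      exacts [Nat.le_of_ble_eq_true (hp1 q h), Nat.le_of_ble_eq_true hb1, Nat.le_of_ble_eq_true (hp1 q h)]
    · cases hb : Nat.beq (G.img e.root) e.root <;> rw [hb] at h
      · simp only [cond_false, List.mem_append, List.mem_singleton, List.mem_reverse] at h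
        rcases h with (h | rfl) | h
        exacts [Nat.le_of_ble_eq_true (hp2 q h), Nat.le_of_ble_eq_true hb2, Nat.le_of_ble_eq_true (hp2 q h)]
      · simp at h
  obtain ⟨hρ1, hρ2, hρn⟩ := psi_pos hV hρ
  obtain ⟨hρ1', hρ2', hρn'⟩ := psi_pos hV hρ'
  have slev : ∀ r, r < D.nroots → D.nroots / 2 ≤ r → 0 < (Tbl.Valid.toSys.{u} hV).lev r + (Tbl.Valid.toSys.{u} hV).lev (C.rho r) := fun r h2 h1 => by
    have := (Tbl.Valid.toSys.{u} hV).lev_pos h2 h1
    have := (Tbl.Valid.toSys.{u} hV).lev_pos (C.rho_lt r h2) ((C.rho_pos r h2).2 h1)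
    omega
  -- a combination of two roots of the system equals neither of the two roots
  have main : ∀ x, (x = ρ ∨ x = ρ') → ∀ r s, psi T st.roots r = true → psi T st.roots s = true →
      ∀ a b : ℤ, 1 ≤ a → 1 ≤ b → ¬ ∀ k < D.rank, (Tbl.Valid.toSys.{u} hV).vec x k = a * (Tbl.Valid.toSys.{u} hV).vec r k + b * (Tbl.Valid.toSys.{u} hV).vec s k := by
    intro x hx r s hr hs a b ha hb h
    obtain ⟨r1, r2, rn⟩ := psi_pos hV hr
    obtain ⟨s1, s2, sn⟩ := psi_pos hV hs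
    have hxP : psi T st.roots x = true := by rcases hx with rfl | rfl <;> assumption
    obtain ⟨x1, x2, xn⟩ := psi_pos hV hxP
    have hxρ : (Tbl.Valid.toSys.{u} hV).lev x + (Tbl.Valid.toSys.{u} hV).lev (C.rho x) = (Tbl.Valid.toSys.{u} hV).lev ρ + (Tbl.Valid.toSys.{u} hV).lev (C.rho ρ) := by
      rcases hx with rfl | rfl
      · rfl
      · rw [show ρ' = C.rho ρ from (hA.img ρ).symm, C.rho_rho ρ hρ2, add_comm]
    have e1 := lev_comb (Tbl.Valid.toSys.{u} hV) h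
    have e2 := lev_comb (Tbl.Valid.toSys.{u} hV) (C.rho_lin r s x r2 s2 x2 a b h)
    have c1 := slev r r2 r1
    have c2 := slev s s2 s1
    have hne : ∀ y, psi T st.roots y = true → (Tbl.Valid.toSys.{u} hV).lev y + (Tbl.Valid.toSys.{u} hV).lev (C.rho y) < (Tbl.Valid.toSys.{u} hV).lev x + (Tbl.Valid.toSys.{u} hV).lev (C.rho x) →
        y ≠ ρ ∧ y ≠ ρ' := by
      intro y hy hlt
      refine ⟨fun k => ?_, fun k => ?_⟩
      · subst k; omega
      · subst k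
        rw [show ρ' = C.rho ρ from (hA.img ρ).symm, C.rho_rho ρ hρ2] at hlt
        omega
    have l1 := hne r hr (by rw [e1, e2]; nlinarith)
    have l2 := hne s hs (by rw [e1, e2]; nlinarith)
    have pim : ∀ y, psi T st.roots y = true → y ≠ ρ → y ≠ ρ' → 0 < (Tbl.Valid.toSys.{u} hV).lev (wAct T (e.refl G) y) :=
      fun y hy n1 n2 => by
        rcases hall y (psi_pos hV hy).2.2 with (k | k | k) | k
        · exact absurd (hy.symm.trans k) (by decide)
        · exact absurd (Nat.eq_of_beq_eq_true k) n1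
        · exact absurd (Nat.eq_of_beq_eq_true k) n2
        · obtain ⟨a1, a2, -⟩ := psi_pos hV k.1.1.1.1.1
          exact (Tbl.Valid.toSys.{u} hV).lev_pos a2 a1
    have e3 := lev_comb (Tbl.Valid.toSys.{u} hV) (vec_wAct hV hL rn sn xn h)
    have d1 := pim r hr l1.1 l1.2
    have d2 := pim s hs l2.1 l2.2
    have e4 : (Tbl.Valid.toSys.{u} hV).lev (wAct T (e.refl G) x) < 0 := by
      rcases hx with rfl | rfl
      · rw [Nat.eq_of_beq_eq_true hneg, ← neg_eq_negAt hV hρn, (Tbl.Valid.toSys.{u} hV).lev_neg hρ2]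
        have := (Tbl.Valid.toSys.{u} hV).lev_pos hρ2 hρ1
        omega
      · rw [Nat.eq_of_beq_eq_true hneg', ← neg_eq_negAt hV hρn', (Tbl.Valid.toSys.{u} hV).lev_neg hρ2']
        have := (Tbl.Valid.toSys.{u} hV).lev_pos hρ2' hρ1'
        omega
    nlinarith
  exact ⟨⟨psi_closed hV hS, hρ, ⟨hρ1, hρ2⟩, fun r s _ _ _ _ hr hs => main ρ (Or.inl rfl) r s hr hs⟩,
    ⟨psi_closed hV hS, hρ', ⟨hρ1', hρ2'⟩, fun r s _ _ _ _ hr hs => main ρ' (Or.inr rfl) r s hr hs⟩⟩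

/-- The reflection of a step, written with orbit elements. -/
theorem orbit_refl {G : Sym} {sts : List TwState} {i : ℕ} {st : TwState} {e : TwStep}
    (he : twStepOK T G sts i st e = true) (hsym : symOK T G = true)
    (C : TwCtx (Tbl.Valid.toSys.{u} hV) F) (hA : TwAgree hV G C) :
    (∀ t : F, (C.rho e.root = e.root → C.φ t = t) →
      C.ox e.root t * C.ox (T.negAt e.root) t⁻¹ * C.ox e.root t ∈ C.G1) ∧
    (∀ t : F, C.ox e.root t * C.ox (T.negAt e.root) t⁻¹ * C.ox e.root t =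
      if G.img e.root = e.root then (Tbl.Valid.toSys.{u} hV).nU e.root t
      else (Tbl.Valid.toSys.{u} hV).nU e.root t * (Tbl.Valid.toSys.{u} hV).nU (G.img e.root) (C.φ t)) ∧
    (Tbl.Valid.toSys.{u} hV).nw F (e.refl G) = C.ox e.root 1 * C.ox (T.negAt e.root) 1⁻¹ * C.ox e.root 1 := by
  classical
  simp only [twStepOK, Bool.and_eq_true, List.all_eq_true, List.mem_range, Bool.or_eq_true,
    Bool.not_eq_true', decide_eq_true_eq] at he
  obtain ⟨⟨⟨⟨⟨⟨⟨⟨⟨⟨⟨⟨⟨⟨⟨⟨hp1, hb1⟩, hp2⟩, hb2⟩, -⟩, -⟩, -⟩, hρ⟩, hρ'⟩, hpath⟩, hpath'⟩, -⟩, -⟩,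
    hpair⟩, -⟩, -⟩, -⟩ := he
  set ρ := e.root with hρdef
  set ρ' := G.img ρ with hρ'def
  obtain ⟨hρ1, hρ2, hρn⟩ := psi_pos hV hρ
  obtain ⟨hρ1', hρ2', hρn'⟩ := psi_pos hV hρ'
  have hρC : C.rho ρ = ρ' := hA.img ρ
  have hp1' : ∀ q ∈ e.path, q < T.l := fun q hq => Nat.le_of_ble_eq_true (hp1 q hq)
  have hp2' : ∀ q ∈ e.path', q < T.l := fun q hq => Nat.le_of_ble_eq_true (hp2 q hq)
  have hb1' : e.base < T.l := Nat.le_of_ble_eq_true hb1
  have hb2' : e.base' < T.l := Nat.le_of_ble_eq_true hb2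
  set L := e.refl G with hLdef
  -- commuting root elements
  have hn1 : T.negAt ρ < T.n := hV.negAt_lt hρn
  have hn1' : T.negAt ρ' < T.n := hV.negAt_lt hρn'
  have hpairC : ρ' ≠ ρ → commEven T ρ (T.negAt ρ') = true ∧ commEven T (T.negAt ρ) ρ' = true ∧
      prT T ρ ρ' = 0 := fun hne => by
    rcases hpair with h | h
    · exact absurd (Nat.eq_of_beq_eq_true h) hne
    · exact ⟨h.1.1, h.1.2, h.2⟩
  have hsymr : ∀ r, r < T.n → G.img (T.negAt r) = T.negAt (G.img r) := fun r hr => by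
    simp only [symOK, Bool.and_eq_true, List.all_eq_true, List.mem_range] at hsym
    exact Nat.eq_of_beq_eq_true (hsym.1 r hr).1.1.2
  -- the orbit reflection as a fixed element
  let M : F → GL D.Idx F := fun t => C.ox ρ t * C.ox (T.negAt ρ) t⁻¹ * C.ox ρ t
  have hM : ∀ t : F, M t = if ρ' = ρ then (Tbl.Valid.toSys.{u} hV).nU ρ t else (Tbl.Valid.toSys.{u} hV).nU ρ t * (Tbl.Valid.toSys.{u} hV).nU ρ' (C.φ t) := by
    intro t
    have hneg_img : C.rho (T.negAt ρ) = T.negAt ρ' := by rw [hA.img, hsymr ρ hρn]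
    simp only [M, TwCtx.ox, hρC, hneg_img]
    by_cases hd : ρ' = ρ
    · rw [if_pos hd, if_pos hd, if_pos (by rw [hd]), (Tbl.Valid.toSys.{u} hV).nU_eq, neg_eq_negAt hV hρn, CharTwo.neg_eq]
    · have hd' : T.negAt ρ' ≠ T.negAt ρ := fun e => hd (by
        have := congrArg T.negAt e
        rwa [hV.negAt_negAt hρn', hV.negAt_negAt hρn] at this)
      obtain ⟨q1, q2, -⟩ := hpairC hd
      rw [if_neg hd, if_neg hd, if_neg hd', (Tbl.Valid.toSys.{u} hV).nU_eq, (Tbl.Valid.toSys.{u} hV).nU_eq, neg_eq_negAt hV hρn, neg_eq_negAt hV hρn',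
        CharTwo.neg_eq, CharTwo.neg_eq, map_inv₀]
      have c1 : Commute ((Tbl.Valid.toSys.{u} hV).xU ρ t) ((Tbl.Valid.toSys.{u} hV).xU ρ' (C.φ t)) := hρC ▸ C.rho_comm ρ hρ2 t (C.φ t)
      have c2 : Commute ((Tbl.Valid.toSys.{u} hV).xU ρ t) ((Tbl.Valid.toSys.{u} hV).xU (T.negAt ρ') (C.φ t)⁻¹) := commute_xU hV hρn hn1' q1 _ _
      have c3 : Commute ((Tbl.Valid.toSys.{u} hV).xU (T.negAt ρ) t⁻¹) ((Tbl.Valid.toSys.{u} hV).xU ρ' (C.φ t)) := commute_xU hV hn1 hρn' q2 _ _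
      calc (Tbl.Valid.toSys.{u} hV).xU ρ t * (Tbl.Valid.toSys.{u} hV).xU ρ' (C.φ t) * ((Tbl.Valid.toSys.{u} hV).xU (T.negAt ρ) t⁻¹ * (Tbl.Valid.toSys.{u} hV).xU (T.negAt ρ') (C.φ t)⁻¹) *
            ((Tbl.Valid.toSys.{u} hV).xU ρ t * (Tbl.Valid.toSys.{u} hV).xU ρ' (C.φ t))
          = (Tbl.Valid.toSys.{u} hV).xU ρ t * ((Tbl.Valid.toSys.{u} hV).xU ρ' (C.φ t) * (Tbl.Valid.toSys.{u} hV).xU (T.negAt ρ) t⁻¹) * ((Tbl.Valid.toSys.{u} hV).xU (T.negAt ρ') (C.φ t)⁻¹ *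
              (Tbl.Valid.toSys.{u} hV).xU ρ t) * (Tbl.Valid.toSys.{u} hV).xU ρ' (C.φ t) := by simp only [mul_assoc]
        _ = (Tbl.Valid.toSys.{u} hV).xU ρ t * ((Tbl.Valid.toSys.{u} hV).xU (T.negAt ρ) t⁻¹ * (Tbl.Valid.toSys.{u} hV).xU ρ' (C.φ t)) * ((Tbl.Valid.toSys.{u} hV).xU ρ t *
              (Tbl.Valid.toSys.{u} hV).xU (T.negAt ρ') (C.φ t)⁻¹) * (Tbl.Valid.toSys.{u} hV).xU ρ' (C.φ t) := by rw [c3.eq, c2.eq]
        _ = (Tbl.Valid.toSys.{u} hV).xU ρ t * (Tbl.Valid.toSys.{u} hV).xU (T.negAt ρ) t⁻¹ * ((Tbl.Valid.toSys.{u} hV).xU ρ' (C.φ t) * (Tbl.Valid.toSys.{u} hV).xU ρ t) *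
              ((Tbl.Valid.toSys.{u} hV).xU (T.negAt ρ') (C.φ t)⁻¹ * (Tbl.Valid.toSys.{u} hV).xU ρ' (C.φ t)) := by simp only [mul_assoc]
        _ = (Tbl.Valid.toSys.{u} hV).xU ρ t * (Tbl.Valid.toSys.{u} hV).xU (T.negAt ρ) t⁻¹ * ((Tbl.Valid.toSys.{u} hV).xU ρ t * (Tbl.Valid.toSys.{u} hV).xU ρ' (C.φ t)) *
              ((Tbl.Valid.toSys.{u} hV).xU (T.negAt ρ') (C.φ t)⁻¹ * (Tbl.Valid.toSys.{u} hV).xU ρ' (C.φ t)) := by rw [c1.eq]
        _ = _ := by simp only [mul_assoc]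
  have hMG : ∀ t : F, (C.rho ρ = ρ → C.φ t = t) → M t ∈ C.G1 := fun t ht => by
    refine mul_mem (mul_mem (C.ox_mem hρ2 ht) (C.ox_mem (lt_nroots hV hn1) fun e => ?_)) (C.ox_mem hρ2 ht)
    rw [map_inv₀, ht]
    rw [hA.img, hsymr ρ hρn] at e
    have := congrArg T.negAt e
    rw [hV.negAt_negAt hρn', hV.negAt_negAt hρn] at this
    rw [hρC]; exact this
  set N := M 1 with hNdef
  have hNG : N ∈ C.G1 := hMG 1 fun _ => map_one _
  have hNw : N = (Tbl.Valid.toSys.{u} hV).nw F L := by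
    rw [hNdef, hM, hLdef, TwStep.refl]
    by_cases hd : ρ' = ρ
    · rw [if_pos hd, show Nat.beq (G.img e.root) e.root = true by
        rw [show G.img e.root = e.root from hd]; exact Nat.beq_refl _, cond_true, List.append_nil,
        nw_palindrome hV hp1' hb1', Nat.eq_of_beq_eq_true hpath]
    · rw [if_neg hd, show Nat.beq (G.img e.root) e.root = false by
        rw [← Bool.not_eq_true]; exact fun k => hd (Nat.eq_of_beq_eq_true k), cond_false, Sys.nw_append,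
        nw_palindrome hV hp1' hb1', nw_palindrome hV hp2' hb2', Nat.eq_of_beq_eq_true hpath,
        Nat.eq_of_beq_eq_true hpath', map_one]
  exact ⟨hMG, hM, hNw.symm⟩

/-- The step at an orbit of fundamental roots of the orthogonal system. -/
theorem tw_step_reduce [Finite F] {G : Sym} {sts : List TwState} {i : ℕ} {st : TwState} {e : TwStep}
    (he : twStepOK T G sts i st e = true) (hsym : symOK T G = true)
    (C : TwCtx (Tbl.Valid.toSys.{u} hV) F) (hA : TwAgree hV G C)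
    (hcm : ∀ r, psi T st.roots r = true → ∀ s ∈ st.roots, commEven T r s = true)
    (hrho : ∀ r, psi T st.roots r = true → psi T st.roots (G.img r) = true)
    (hS : ∀ s ∈ st.roots, s < T.n)
    {c : F} (hc0 : c ≠ 0) (hcφ : C.rho e.root = e.root → C.φ c = c) {v : GL D.Idx F}
    (hv : v ∈ (Tbl.Valid.toSys.{u} hV).genBy F
      (fun r => (psi T st.roots r = true ∧ r ≠ e.root) ∧ r ≠ G.img e.root))
    (hvfix : C.sg v = v) (hsq : (C.ox e.root c * v) * (C.ox e.root c * v) = 1)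
    (hcc : allComm T (sts.getD e.next ⟨[], []⟩).roots = true) :
    ∃ f ∈ (Tbl.Valid.toSys.{u} hV).genBy F (fun r => psi T (sts.getD e.next ⟨[], []⟩).roots r = true),
      C.sg f = f ∧ f * f = 1 ∧ i < e.next ∧
      ∃ h ∈ C.G1, h * (wOne hV F st.roots * (C.ox e.root c * v)) * h⁻¹ =
        wOne hV F (sts.getD e.next ⟨[], []⟩).roots * f := by
  classical
  haveI : Fintype F := Fintype.ofFinite F
  set nx := sts.getD e.next ⟨[], []⟩
  obtain ⟨Tρ, Tρ'⟩ := twStep_closed hV he hS hsym C hA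
  have horb := orbit_refl hV he hsym C hA
  simp only [twStepOK, Bool.and_eq_true, List.all_eq_true, List.mem_range, Bool.or_eq_true,
    Bool.not_eq_true', decide_eq_true_eq] at he
  obtain ⟨⟨⟨⟨⟨⟨⟨⟨⟨⟨⟨⟨⟨⟨⟨⟨hp1, hb1⟩, hp2⟩, hb2⟩, hm⟩, hlt⟩, -⟩, hρ⟩, hρ'⟩, hpath⟩, hpath'⟩, hneg⟩, hneg'⟩,
    hpair⟩, hfix⟩, hperm⟩, hall⟩ := he
  set ρ := e.root with hρdef
  set ρ' := G.img ρ with hρ'def
  obtain ⟨hρ1, hρ2, hρn⟩ := psi_pos hV hρ
  obtain ⟨hρ1', hρ2', hρn'⟩ := psi_pos hV hρ'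
  have hρC : C.rho ρ = ρ' := hA.img ρ
  have hp1' : ∀ q ∈ e.path, q < T.l := fun q hq => Nat.le_of_ble_eq_true (hp1 q hq)
  have hp2' : ∀ q ∈ e.path', q < T.l := fun q hq => Nat.le_of_ble_eq_true (hp2 q hq)
  have hb1' : e.base < T.l := Nat.le_of_ble_eq_true hb1
  have hb2' : e.base' < T.l := Nat.le_of_ble_eq_true hb2
  have hm' : ∀ q ∈ G.word e.move, q < T.l := fun q hq => Nat.le_of_ble_eq_true (hm q hq)
  set L := e.refl G with hLdef
  set p := wAct T L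
  have hLl : ∀ q ∈ L, q < T.l := by
    intro q hq
    rw [hLdef, TwStep.refl] at hq
    rcases List.mem_append.1 hq with h | h
    · simp only [List.mem_append, List.mem_singleton, List.mem_reverse] at h
      rcases h with (h | rfl) | h
      exacts [hp1' q h, hb1', hp1' q h]
    · cases hb : Nat.beq (G.img e.root) e.root <;> rw [hb] at h
      · simp only [cond_false, List.mem_append, List.mem_singleton, List.mem_reverse] at h
        rcases h with (h | rfl) | h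
        exacts [hp2' q h, hb2', hp2' q h]
      · simp at h
  -- commuting root elements
  have hn1 : T.negAt ρ < T.n := hV.negAt_lt hρn
  have hn1' : T.negAt ρ' < T.n := hV.negAt_lt hρn'
  have hpairC : ρ' ≠ ρ → commEven T ρ (T.negAt ρ') = true ∧ commEven T (T.negAt ρ) ρ' = true ∧
      prT T ρ ρ' = 0 := fun hne => by
    rcases hpair with h | h
    · exact absurd (Nat.eq_of_beq_eq_true h) hne
    · exact ⟨h.1.1, h.1.2, h.2⟩
  have hsymr : ∀ r, r < T.n → G.img (T.negAt r) = T.negAt (G.img r) := fun r hr => by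
    simp only [symOK, Bool.and_eq_true, List.all_eq_true, List.mem_range] at hsym
    exact Nat.eq_of_beq_eq_true (hsym.1 r hr).1.1.2
  obtain ⟨hMG, hM, hNw0⟩ := horb
  let M : F → GL D.Idx F := fun t => C.ox ρ t * C.ox (T.negAt ρ) t⁻¹ * C.ox ρ t
  set N := M 1 with hNdef
  have hNG : N ∈ C.G1 := hMG 1 fun _ => map_one _
  have hNw : N = (Tbl.Valid.toSys.{u} hV).nw F L := hNw0.symm
  have hNN : ∀ t : F, M t * M t = 1 := by
    intro t
    simp only [M]
    rw [hM]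
    have nsq : ∀ r : ℕ, ∀ s : F, (Tbl.Valid.toSys.{u} hV).nU r s * (Tbl.Valid.toSys.{u} hV).nU r s = 1 := fun r s => by
      nth_rw 1 [← CharTwo.neg_eq s]
      rw [(Tbl.Valid.toSys.{u} hV).nU_neg, inv_mul_cancel]
    split_ifs with hd
    · exact nsq ρ t
    · obtain ⟨q1, q2, -⟩ := hpairC hd
      have cc : Commute ((Tbl.Valid.toSys.{u} hV).nU ρ t) ((Tbl.Valid.toSys.{u} hV).nU ρ' (C.φ t)) := by
        have c1 := hρC ▸ C.rho_comm ρ hρ2 t (C.φ t)
        have c2 := commute_xU hV (F := F) hρn hn1' q1 t (-(C.φ t)⁻¹)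
        have c3 := commute_xU hV (F := F) hn1 hρn' q2 (-t⁻¹) (C.φ t)
        have c4 : Commute ((Tbl.Valid.toSys.{u} hV).xU (T.negAt ρ) (-t⁻¹)) ((Tbl.Valid.toSys.{u} hV).xU (T.negAt ρ') (-(C.φ t)⁻¹)) := by
          have := C.rho_comm (T.negAt ρ) (lt_nroots hV hn1) (-t⁻¹) (-(C.φ t)⁻¹)
          rwa [hA.img, hsymr ρ hρn] at this
        rw [(Tbl.Valid.toSys.{u} hV).nU_eq, (Tbl.Valid.toSys.{u} hV).nU_eq, neg_eq_negAt hV hρn, neg_eq_negAt hV hρn']
        exact ((c1.mul_right c2).mul_right c1).mul_left ((c3.mul_right c4).mul_right c3) |>.mul_left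
          ((c1.mul_right c2).mul_right c1)
      rw [show ∀ a b : GL D.Idx F, a * b * (a * b) = a * (b * a) * b from fun a b => by group, ← cc.eq,
        show ∀ a b : GL D.Idx F, a * (a * b) * b = (a * a) * (b * b) from fun a b => by group, nsq, nsq,
        one_mul]
  have hN2 : N * N = 1 := hNN 1
  have hNx : ∀ r, r < T.n → ∀ t : F, N * (Tbl.Valid.toSys.{u} hV).xU r t * N⁻¹ = (Tbl.Valid.toSys.{u} hV).xU (p r) t := fun r hr t => by
    rw [hNw]; exact nw_xU hV hLl hr t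
  -- the roots moved by the reflection
  let Q : ℕ → Prop := fun r => (psi T st.roots r = true ∧ r ≠ ρ) ∧ r ≠ ρ'
  have hQ : ∀ r, Q r → Q (p r) ∧ p (p r) = r ∧ p (G.img r) = G.img (p r) ∧
      (p r = r → commEven T ρ r = true ∧ commEven T ρ' r = true ∧
        psi T nx.roots (wAct T (G.word e.move) r) = true) := by
    rintro r ⟨⟨h1, h2⟩, h3⟩
    rcases hall r (psi_pos hV h1).2.2 with (h | h | h) | h
    · exact absurd (h1.symm.trans h) (by decide)
    · exact absurd (Nat.eq_of_beq_eq_true h) h2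
    · exact absurd (Nat.eq_of_beq_eq_true h) h3
    · obtain ⟨⟨⟨⟨⟨q1, q2⟩, q3⟩, q4⟩, q5⟩, q6⟩ := h
      have ne : ∀ x y : ℕ, Nat.beq x y = false → x ≠ y := fun x y h e => by
        subst e
        rw [show Nat.beq x x = true from Nat.beq_refl _] at h
        exact absurd h (by decide)
      refine ⟨⟨⟨q1, ne _ _ q2⟩, ne _ _ q3⟩, Nat.eq_of_beq_eq_true q4, Nat.eq_of_beq_eq_true q5, fun e' => ?_⟩
      rcases q6 with q6 | q6
      · exact absurd e' (ne _ _ q6)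
      · exact ⟨q6.1.1, q6.1.2, q6.2⟩
  have hQ2 : ∀ r, Q r → r < T.n := fun r h => (psi_pos hV h.1.1).2.2
  have hpd : TwPairData C Q p :=
    { base :=
        { pos := fun r h => ⟨(psi_pos hV h.1.1).1, (psi_pos hV h.1.1).2.1⟩
          closed := fun r s w q1 q2 q3 q4 q5 q6 h1 h2 h3 =>
            ⟨(IsTop.closed_del _ Tρ) r s w q1 q2 q3 q4 q5 q6 h1.1 h2.1 h3,
              ((IsTop.closed_del _ Tρ') r s w q1 q2 q3 q4 q5 q6 ⟨h1.1.1, h1.2⟩ ⟨h2.1.1, h2.2⟩ h3).2⟩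
          map := fun r h => (hQ r h).1
          invol := fun r h => (hQ r h).2.1
          linear := fun r s w hr hs hw a b h => lev_comb (Tbl.Valid.toSys.{u} hV) (vec_wAct hV hLl
            (hV.linked.nroots ▸ hr) (hV.linked.nroots ▸ hs) (hV.linked.nroots ▸ hw) h) }
      rhoQ := fun r h => by
        have hr := (psi_pos hV h.1.1).2.1
        rw [hA.img]
        refine ⟨⟨hrho r h.1.1, fun k => h.2 ?_⟩, fun k => h.1.2 ?_⟩
        · have := C.rho_rho r hr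
          rw [hA.img, hA.img, k] at this
          exact this.symm
        · have e1 := C.rho_rho r hr
          have e2 := C.rho_rho ρ hρ2
          rw [hA.img, hA.img] at e1 e2
          rw [k, e2] at e1
          exact e1.symm
      comm := fun r h => by rw [hA.img, hA.img]; exact (hQ r h).2.2.1 }
  set z := wOne hV F st.roots with hzdef
  have hcz : ∀ r, psi T st.roots r = true → ∀ t : F, Commute ((Tbl.Valid.toSys.{u} hV).xU r t) z := fun r hr t =>
    wOne_commute hV fun s hs => commute_xU hV (psi_pos hV hr).2.2 (hS s hs) (hcm r hr s hs) t 1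
  have hNz : Commute N z := by
    refine wOne_commute hV fun s hs => ?_
    have := hNx s (hS s hs) 1
    rw [show p s = s from Nat.eq_of_beq_eq_true (hfix s hs).1.1, mul_inv_eq_iff_eq_mul] at this
    exact this
  have hoxz : ∀ t : F, Commute (C.ox ρ t) z := fun t => by
    unfold TwCtx.ox
    split_ifs
    · exact hcz ρ hρ t
    · exact (hcz ρ hρ t).mul_left (hρC ▸ hcz ρ' hρ' _)
  -- scale the coefficient
  obtain ⟨a, ha⟩ : ∃ a : F, a ^ 2 = c⁻¹ := by
    obtain ⟨a, ha⟩ := FiniteField.isSquare_of_char_two (ringChar.eq F 2) c⁻¹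
    exact ⟨a, by rw [sq, ← ha]⟩
  have ha0 : a ≠ 0 := fun e' => by
    rw [e', zero_pow (by decide)] at ha
    exact inv_ne_zero hc0 ha.symm
  have haφ : C.rho ρ = ρ → C.φ a = a := fun h => by
    have h2 : (C.φ a) ^ 2 = a ^ 2 := by rw [← map_pow, ha, map_inv₀, hcφ h]
    have h3 : (C.φ a - a) ^ 2 = 0 := by rw [sub_pow_char, h2, sub_self]
    exact sub_eq_zero.1 (pow_eq_zero_iff (by decide : (2 : ℕ) ≠ 0) |>.1 h3)
  set H := M a * N with hH
  have hHG : H ∈ C.G1 := mul_mem (hMG a haφ) hNG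
  set ua := Units.mk0 a ha0
  set ub := Units.map (C.φ : F →* F) ua
  set zc : ℕ → Fˣ := if ρ' = ρ then hz D ρ ua else hz D ρ ua * hz D ρ' ub with hzc
  have hHd : H = (Tbl.Valid.toSys.{u} hV).dg zc := by
    have hU : ∀ r, r < D.nroots → ∀ u : Fˣ, (Tbl.Valid.toSys.{u} hV).nU r (u : F) * (Tbl.Valid.toSys.{u} hV).nU r 1 = (Tbl.Valid.toSys.{u} hV).dg (hz D r u) := by
      intro r hr u
      rw [← (Tbl.Valid.toSys.{u} hV).hU_eq_dg hr, (Tbl.Valid.toSys.{u} hV).hU_eq, CharTwo.neg_eq]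
    rw [hH, hNdef]
    simp only [M]
    rw [hM, hM, hzc]
    split_ifs with hd
    · exact hU ρ hρ2 ua
    · obtain ⟨q1, q2, -⟩ := hpairC hd
      have c1 := hρC ▸ C.rho_comm ρ hρ2 (1 : F) (C.φ a)
      have c2 := commute_xU hV (F := F) hρn hn1' q1 1 (-(C.φ a)⁻¹)
      have c3 := commute_xU hV (F := F) hn1 hρn' q2 (-(1 : F)⁻¹) (C.φ a)
      have c4 : Commute ((Tbl.Valid.toSys.{u} hV).xU (T.negAt ρ) (-(1 : F)⁻¹)) ((Tbl.Valid.toSys.{u} hV).xU (T.negAt ρ') (-(C.φ a)⁻¹)) := by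
        have := C.rho_comm (T.negAt ρ) (lt_nroots hV hn1) (-(1 : F)⁻¹) (-(C.φ a)⁻¹)
        rwa [hA.img, hsymr ρ hρn] at this
      have cc : Commute ((Tbl.Valid.toSys.{u} hV).nU ρ (1 : F)) ((Tbl.Valid.toSys.{u} hV).nU ρ' (C.φ a)) := by
        rw [(Tbl.Valid.toSys.{u} hV).nU_eq, (Tbl.Valid.toSys.{u} hV).nU_eq, neg_eq_negAt hV hρn, neg_eq_negAt hV hρn']
        exact ((c1.mul_right c2).mul_right c1).mul_left ((c3.mul_right c4).mul_right c3) |>.mul_left
          ((c1.mul_right c2).mul_right c1)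
      rw [map_one, (Tbl.Valid.toSys.{u} hV).dg_mul, ← hU ρ hρ2 ua, ← hU ρ' hρ2' ub,
        show (Tbl.Valid.toSys.{u} hV).nU ρ a * (Tbl.Valid.toSys.{u} hV).nU ρ' (C.φ a) * ((Tbl.Valid.toSys.{u} hV).nU ρ 1 * (Tbl.Valid.toSys.{u} hV).nU ρ' 1) =
          (Tbl.Valid.toSys.{u} hV).nU ρ a * ((Tbl.Valid.toSys.{u} hV).nU ρ' (C.φ a) * (Tbl.Valid.toSys.{u} hV).nU ρ 1) * (Tbl.Valid.toSys.{u} hV).nU ρ' 1 by group, ← cc.eq]
      simp only [mul_assoc]
      rfl
  have hchi : ∀ s ∈ st.roots, (Tbl.Valid.toSys.{u} hV).chi zc s = 1 := fun s hs => by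
    rw [hzc]
    split_ifs
    · rw [(Tbl.Valid.toSys.{u} hV).chi_hz _ _ (lt_nroots hV (hS s hs)), ← prT_eq hV (hS s hs) hρn, (hfix s hs).1.2, zpow_zero]
    · rw [(Tbl.Valid.toSys.{u} hV).chi_mul, (Tbl.Valid.toSys.{u} hV).chi_hz _ _ (lt_nroots hV (hS s hs)), (Tbl.Valid.toSys.{u} hV).chi_hz _ _ (lt_nroots hV (hS s hs)),
        ← prT_eq hV (hS s hs) hρn, ← prT_eq hV (hS s hs) hρn', (hfix s hs).1.2, (hfix s hs).2,
        zpow_zero, zpow_zero, one_mul]
  have hchiρ : ((Tbl.Valid.toSys.{u} hV).chi zc ρ : F) * c = 1 := by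
    rw [hzc]
    split_ifs with hd
    · rw [(Tbl.Valid.toSys.{u} hV).chi_hz_self hρ2, zpow_ofNat, Units.val_pow_eq_pow_val, Units.val_mk0, ha, inv_mul_cancel₀ hc0]
    · rw [(Tbl.Valid.toSys.{u} hV).chi_mul, (Tbl.Valid.toSys.{u} hV).chi_hz_self hρ2, (Tbl.Valid.toSys.{u} hV).chi_hz _ _ hρ2, ← prT_eq hV hρn hρn', (hpairC hd).2.2,
        zpow_zero, mul_one, zpow_ofNat, Units.val_pow_eq_pow_val, Units.val_mk0, ha, inv_mul_cancel₀ hc0]
  have hdz : Commute H z := by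
    refine wOne_commute hV fun s hs => ?_
    show H * (Tbl.Valid.toSys.{u} hV).xU s 1 = (Tbl.Valid.toSys.{u} hV).xU s 1 * H
    rw [hHd, (Tbl.Valid.toSys.{u} hV).dg_xU _ (lt_nroots hV (hS s hs)), hchi s hs, Units.val_one, one_mul]
  have hHox : H * C.ox ρ c * H⁻¹ = C.ox ρ 1 := by
    have hsg : C.sg H = H := C.fixed H hHG
    have e1 : H * (Tbl.Valid.toSys.{u} hV).xU ρ c * H⁻¹ = (Tbl.Valid.toSys.{u} hV).xU ρ 1 := by rw [hHd, (Tbl.Valid.toSys.{u} hV).dg_conj_xU _ hρ2, hchiρ]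
    unfold TwCtx.ox
    split_ifs with hd
    · exact e1
    · have e2 := congrArg C.sg e1
      rw [map_mul, map_mul, map_inv, hsg, C.sg_xU ρ hρ2, C.sg_xU ρ hρ2, map_one] at e2
      rw [map_one, show H * ((Tbl.Valid.toSys.{u} hV).xU ρ c * (Tbl.Valid.toSys.{u} hV).xU (C.rho ρ) (C.φ c)) * H⁻¹ =
        (H * (Tbl.Valid.toSys.{u} hV).xU ρ c * H⁻¹) * (H * (Tbl.Valid.toSys.{u} hV).xU (C.rho ρ) (C.φ c) * H⁻¹) by group, e1, e2]
  set v1 := H * v * H⁻¹ with hv1def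
  have hv1 : v1 ∈ (Tbl.Valid.toSys.{u} hV).genBy F Q := by
    rw [hv1def, hHd]
    refine (Tbl.Valid.toSys.{u} hV).diag_conj_genBy _ ?_ hv
    rw [hzc]
    split_ifs
    · exact (Tbl.Valid.toSys.{u} hV).dg_mem_diag hρ2 _
    · rw [(Tbl.Valid.toSys.{u} hV).dg_mul]; exact mul_mem ((Tbl.Valid.toSys.{u} hV).dg_mem_diag hρ2 _) ((Tbl.Valid.toSys.{u} hV).dg_mem_diag hρ2' _)
  have hv1fix : C.sg v1 = v1 := by rw [hv1def, map_mul, map_mul, map_inv, C.fixed H hHG, hvfix]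
  have hsc : CnjT C.G1 z (C.ox ρ c * v) (C.ox ρ 1 * v1) :=
    ⟨H, hHG, hdz, by rw [hv1def, ← hHox]; group⟩
  -- move to the reflection
  set X := C.ox ρ (1 : F) with hXdef
  have hXG : X ∈ C.G1 := C.ox_mem hρ2 fun _ => map_one _
  have hX2 : X * X = 1 := by
    have sq1 : ∀ r, (Tbl.Valid.toSys.{u} hV).xU r (1 : F) * (Tbl.Valid.toSys.{u} hV).xU r 1 = 1 := fun r => by
      rw [(Tbl.Valid.toSys.{u} hV).xU_add, CharTwo.add_self_eq_zero, (Tbl.Valid.toSys.{u} hV).xU_zero]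
    rw [hXdef]; unfold TwCtx.ox
    split_ifs
    · exact sq1 ρ
    · have cc := C.rho_comm ρ hρ2 (1 : F) 1
      rw [map_one, show ∀ a b : GL D.Idx F, a * b * (a * b) = a * (b * a) * b from fun a b => by group,
        ← cc.eq, show ∀ a b : GL D.Idx F, a * (a * b) * b = (a * a) * (b * b) from fun a b => by group,
        sq1, sq1, one_mul]
  have hNX : N * X * N⁻¹ = C.ox (T.negAt ρ) 1 := by
    rw [hXdef]; unfold TwCtx.ox
    have hneg_img : C.rho (T.negAt ρ) = T.negAt ρ' := by rw [hA.img, hsymr ρ hρn]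
    rw [hρC, hneg_img]
    by_cases hd : ρ' = ρ
    · rw [if_pos hd, if_pos (by rw [hd]), hNx ρ hρn, show p ρ = T.negAt ρ from Nat.eq_of_beq_eq_true hneg]
    · rw [if_neg hd, if_neg (fun e => hd (by
        have := congrArg T.negAt e
        rwa [hV.negAt_negAt hρn', hV.negAt_negAt hρn] at this)),
        show N * ((Tbl.Valid.toSys.{u} hV).xU ρ 1 * (Tbl.Valid.toSys.{u} hV).xU ρ' (C.φ 1)) * N⁻¹ = (N * (Tbl.Valid.toSys.{u} hV).xU ρ 1 * N⁻¹) * (N * (Tbl.Valid.toSys.{u} hV).xU ρ' (C.φ 1) * N⁻¹)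
          by group, hNx ρ hρn, hNx ρ' hρn', show p ρ = T.negAt ρ from Nat.eq_of_beq_eq_true hneg,
        show p ρ' = T.negAt ρ' from Nat.eq_of_beq_eq_true hneg']
  set K := X * N with hK
  have hKG : K ∈ C.G1 := mul_mem hXG hNG
  have hKz : Commute K z := (hoxz 1).mul_left hNz
  have hK1 : K * X * K⁻¹ = N := by
    rw [hK, _root_.mul_inv_rev, show X * N * X * (N⁻¹ * X⁻¹) = X * (N * X * N⁻¹) * X⁻¹ by group, hNX,
      inv_eq_of_mul_eq_one_right hX2]
    rw [hNdef]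
    simp only [M, inv_one]
    rfl
  set v2 := K * v1 * K⁻¹ with hv2def
  have hv2 : v2 ∈ (Tbl.Valid.toSys.{u} hV).genBy F Q := by
    have hNQ : N * v1 * N⁻¹ ∈ (Tbl.Valid.toSys.{u} hV).genBy F Q := by
      have : (Tbl.Valid.toSys.{u} hV).genBy F Q ≤ ((Tbl.Valid.toSys.{u} hV).genBy F Q).comap (MulAut.conj N).toMonoidHom :=
        (Tbl.Valid.toSys.{u} hV).genBy_le fun r h1 h2 h3 t => by
          show N * (Tbl.Valid.toSys.{u} hV).xU r t * N⁻¹ ∈ (Tbl.Valid.toSys.{u} hV).genBy F Q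
          rw [hNx r (hQ2 r h3)]
          obtain ⟨q1, q2⟩ := hpd.base.pos _ (hQ r h3).1
          exact (Tbl.Valid.toSys.{u} hV).xU_mem_genBy q1 q2 (hQ r h3).1 t
      exact this hv1
    have hnorm1 : ∀ t : F, ∀ g ∈ (Tbl.Valid.toSys.{u} hV).genBy F Q, (Tbl.Valid.toSys.{u} hV).xU ρ t * g * ((Tbl.Valid.toSys.{u} hV).xU ρ t)⁻¹ ∈ (Tbl.Valid.toSys.{u} hV).genBy F Q :=
      fun t g hg => conj_genBy (Tbl.Valid.toSys.{u} hV) (P := Q) hρ1 hρ2 (fun h => h.1.2 rfl) (fun s w q1 q2 hsQ q3 q4 hw => by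
        refine ⟨(IsTop.norm _ Tρ) s w q1 q2 hsQ.1 q3 q4 hw, fun k => ?_⟩
        subst k
        obtain ⟨i', j', hi', hj', hh⟩ := hw
        exact Tρ'.indec ρ s hρ1 hρ2 q1 q2 hρ hsQ.1.1 i' j' hi' hj' hh) t hg
    have hnorm2 : ∀ t : F, ∀ g ∈ (Tbl.Valid.toSys.{u} hV).genBy F Q, (Tbl.Valid.toSys.{u} hV).xU ρ' t * g * ((Tbl.Valid.toSys.{u} hV).xU ρ' t)⁻¹ ∈ (Tbl.Valid.toSys.{u} hV).genBy F Q :=
      fun t g hg => conj_genBy (Tbl.Valid.toSys.{u} hV) (P := Q) hρ1' hρ2' (fun h => h.2 rfl) (fun s w q1 q2 hsQ q3 q4 hw => by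
        have h' := (IsTop.norm _ Tρ') s w q1 q2 ⟨hsQ.1.1, hsQ.2⟩ q3 q4 hw
        refine ⟨⟨h'.1, fun k => ?_⟩, h'.2⟩
        subst k
        obtain ⟨i', j', hi', hj', hh⟩ := hw
        exact Tρ.indec ρ' s hρ1' hρ2' q1 q2 hρ' hsQ.1.1 i' j' hi' hj' hh) t hg
    rw [hv2def, hK, show X * N * v1 * (X * N)⁻¹ = X * (N * v1 * N⁻¹) * X⁻¹ by group]
    rw [hXdef]; unfold TwCtx.ox
    split_ifs
    · exact hnorm1 1 _ hNQ
    · rw [hρC, show (Tbl.Valid.toSys.{u} hV).xU ρ 1 * (Tbl.Valid.toSys.{u} hV).xU ρ' (C.φ 1) * (N * v1 * N⁻¹) * ((Tbl.Valid.toSys.{u} hV).xU ρ 1 * (Tbl.Valid.toSys.{u} hV).xU ρ' (C.φ 1))⁻¹ =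
        (Tbl.Valid.toSys.{u} hV).xU ρ 1 * ((Tbl.Valid.toSys.{u} hV).xU ρ' (C.φ 1) * (N * v1 * N⁻¹) * ((Tbl.Valid.toSys.{u} hV).xU ρ' (C.φ 1))⁻¹) * ((Tbl.Valid.toSys.{u} hV).xU ρ 1)⁻¹ by group]
      exact hnorm1 1 _ (hnorm2 _ _ hNQ)
  have hv2fix : C.sg v2 = v2 := by rw [hv2def, map_mul, map_mul, map_inv, C.fixed K hKG, hv1fix]
  have hsK : CnjT C.G1 z (X * v1) (N * v2) := ⟨K, hKG, hKz, by
    show K * (X * v1) * K⁻¹ = N * (K * v1 * K⁻¹)
    rw [← hK1]; group⟩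
  have hall' := hsc.trans hsK
  obtain ⟨f, hf, hffix, hc3⟩ := tw_pairs_descend C hpd (N := N) (z := z) hN2 (C.fixed N hNG)
    (fun r hr => hNx r (hQ2 r hr)) (fun r hr => hcz r hr.1.1) 0 v2
    ((Tbl.Valid.toSys.{u} hV).genBy_mono (fun _ _ _ h => ⟨h, Or.inr (Nat.zero_le _)⟩) hv2) hv2fix (hall'.sq hsq)
  have hfX : Commute X f := by
    have : (Tbl.Valid.toSys.{u} hV).genBy F (fun r => Q r ∧ p r = r) ≤ Subgroup.centralizer {X} :=
      (Tbl.Valid.toSys.{u} hV).genBy_le fun r h1 h2 h3 t => Subgroup.mem_centralizer_singleton_iff.2 (by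
        obtain ⟨q1, q2, -⟩ := (hQ r h3.1).2.2.2 h3.2
        have c1 := commute_xU hV (F := F) hρn (hQ2 r h3.1) q1 1 t
        rw [hXdef]; unfold TwCtx.ox
        split_ifs
        · exact c1.symm
        · rw [hρC]; exact (c1.mul_left (commute_xU hV hρn' (hQ2 r h3.1) q2 _ t)).symm)
    exact (Subgroup.mem_centralizer_singleton_iff.1 (this hf)).symm
  have hfN : Commute N f := by
    have : (Tbl.Valid.toSys.{u} hV).genBy F (fun r => Q r ∧ p r = r) ≤ Subgroup.centralizer {N} :=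
      (Tbl.Valid.toSys.{u} hV).genBy_le fun r h1 h2 h3 t => Subgroup.mem_centralizer_singleton_iff.2 (by
        have := hNx r (hQ2 r h3.1) t
        rw [h3.2, mul_inv_eq_iff_eq_mul] at this
        exact this.symm)
    exact (Subgroup.mem_centralizer_singleton_iff.1 (this hf)).symm
  have hback : CnjT C.G1 z (N * f) (X * f) := by
    refine ⟨K⁻¹, inv_mem hKG, hKz.inv_left, ?_⟩
    rw [inv_inv, show K⁻¹ * (N * f) * K = K⁻¹ * N * (f * K) by group,
      show f * K = K * f from (hfX.mul_left hfN).eq.symm, ← hK1]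
    group
  have htot := (hall'.trans hc3).trans hback
  have hsq' : (X * f) * (X * f) = 1 := htot.sq hsq
  rw [show ∀ a P : GL D.Idx F, a * P * (a * P) = a * (P * a) * P from fun a P => by group,
    ← hfX.eq, show ∀ a P : GL D.Idx F, a * (a * P) * P = a * a * (P * P) from fun a P => by group,
    hX2, one_mul] at hsq'
  obtain ⟨h, hh, hhz, hhe⟩ := htot
  set W := (Tbl.Valid.toSys.{u} hV).nw F (G.word e.move) with hW
  have hWG : W ∈ C.G1 := hA.word _ hm'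
  refine ⟨W * f * W⁻¹, ?_, ?_, ?_, Nat.le_of_ble_eq_true hlt, W * h, mul_mem hWG hh, ?_⟩
  · have : (Tbl.Valid.toSys.{u} hV).genBy F (fun r => Q r ∧ p r = r) ≤
        ((Tbl.Valid.toSys.{u} hV).genBy F (fun r => psi T nx.roots r = true)).comap (MulAut.conj W).toMonoidHom :=
      (Tbl.Valid.toSys.{u} hV).genBy_le fun r h1 h2 h3 t => by
        show W * (Tbl.Valid.toSys.{u} hV).xU r t * W⁻¹ ∈ (Tbl.Valid.toSys.{u} hV).genBy F (fun r => psi T nx.roots r = true)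
        rw [hW, nw_xU hV hm' (hQ2 r h3.1)]
        have hnx := ((hQ r h3.1).2.2.2 h3.2).2.2
        exact (Tbl.Valid.toSys.{u} hV).xU_mem_genBy (psi_pos hV hnx).1 (psi_pos hV hnx).2.1 hnx t
    exact this hf
  · rw [map_mul, map_mul, map_inv, C.fixed W hWG, hffix]
  · rw [show W * f * W⁻¹ * (W * f * W⁻¹) = W * (f * f) * W⁻¹ by group, hsq']
    group
  · have e1 : wOne hV F nx.roots = W * (z * X) * W⁻¹ := by
      rw [← wOne_perm hV hcc (List.isPerm_iff.1 hperm), ← nw_wOne hV hm', wOne_append, orb_one hV hA]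
      intro r hr
      rcases List.mem_append.1 hr with h' | h'
      · exact hS r h'
      · rw [Sym.orb] at h'
        cases hb : Nat.beq (G.img ρ) ρ <;> rw [hb] at h'
        · simp only [cond_false, List.mem_cons, List.not_mem_nil, or_false] at h'
          rcases h' with rfl | rfl
          exacts [hρn, hρn']
        · simp only [cond_true, List.mem_singleton] at h'
          rw [h']; exact hρn
    rw [e1, show W * h * (z * (C.ox ρ c * v)) * (W * h)⁻¹ =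
      W * ((h * z * h⁻¹) * (h * (C.ox ρ c * v) * h⁻¹)) * W⁻¹ by group, hhe, hhz.eq]
    group

/-- The coordinates reach an orbit of fundamental roots. -/
theorem tw_descend [Finite F] {G : Sym} {sts : List TwState} {i : ℕ}
    (hi : twStateOK T G sts i = true) (hsym : symOK T G = true)
    (C : TwCtx (Tbl.Valid.toSys.{u} hV) F) (hA : TwAgree hV G C) {f : GL D.Idx F}
    (hf : f ∈ (Tbl.Valid.toSys.{u} hV).genBy F (fun r => psi T (sts.getD i ⟨[], []⟩).roots r = true))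
    (hfix : C.sg f = f) (h1 : f ≠ 1) :
    ∃ e ∈ (sts.getD i ⟨[], []⟩).steps, ∃ c : F, c ≠ 0 ∧ (C.rho e.root = e.root → C.φ c = c) ∧
      ∃ v ∈ (Tbl.Valid.toSys.{u} hV).genBy F
        (fun r => (psi T (sts.getD i ⟨[], []⟩).roots r = true ∧ r ≠ e.root) ∧ r ≠ G.img e.root),
      C.sg v = v ∧ CnjT C.G1 (wOne hV F (sts.getD i ⟨[], []⟩).roots) f (C.ox e.root c * v) := by
  classical
  set st := sts.getD i ⟨[], []⟩
  simp only [twStateOK, allComm, Bool.and_eq_true, List.all_eq_true, List.mem_range, Bool.or_eq_true,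
    Bool.not_eq_true', List.any_eq_true, decide_eq_true_eq] at hi
  obtain ⟨⟨hS', hsteps⟩, hall⟩ := hi
  have hS : ∀ s ∈ st.roots, s < T.n := fun s hs' => Nat.le_of_ble_eq_true (hS' s hs').1
  let P : ℕ → Prop := fun r => psi T st.roots r = true
  have hP : (Tbl.Valid.toSys.{u} hV).IsClosedRootSet P := psi_closed hV hS
  have hPpos : ∀ r, P r → D.nroots / 2 ≤ r ∧ r < D.nroots := fun r h =>
    ⟨(psi_pos hV h).1, (psi_pos hV h).2.1⟩
  have hPrho : ∀ r, P r → P (C.rho r) := fun r h => by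
    rw [hA.img]
    rcases hall r (psi_pos hV h).2.2 with k | k
    · exact absurd (h.symm.trans k) (by decide)
    · exact k.1.2
  have hslev : ∀ r, slevT T G r = (Tbl.Valid.toSys.{u} hV).lev r + (Tbl.Valid.toSys.{u} hV).lev (C.rho r) := fun r => by
    rw [slevT, lev_levT hV, lev_levT hV, hA.img]
  suffices H : ∀ (m : ℕ) (f : GL D.Idx F), f ∈ (Tbl.Valid.toSys.{u} hV).genBy F P → C.sg f = f → f ≠ 1 →
      ∀ t : ℕ → F, (∀ r, ¬ (P r ∧ D.nroots / 2 ≤ r ∧ r < D.nroots) → t r = 0) →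
      f = (Tbl.Valid.toSys.{u} hV).prodFrom t (D.nroots / 2) →
      (∀ M : ℕ, (∀ r, t r ≠ 0 → (M : ℤ) ≤ slevT T G r) → M ≤ m) →
      ∃ e ∈ st.steps, ∃ c : F, c ≠ 0 ∧ (C.rho e.root = e.root → C.φ c = c) ∧
      ∃ v ∈ (Tbl.Valid.toSys.{u} hV).genBy F (fun r => (psi T st.roots r = true ∧ r ≠ e.root) ∧ r ≠ G.img e.root),
      C.sg v = v ∧ CnjT C.G1 (wOne hV F st.roots) f (C.ox e.root c * v) by
    obtain ⟨t, ht, e⟩ := exists_coords (Tbl.Valid.toSys.{u} hV) hP hf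
    obtain ⟨r1, hr1⟩ : ∃ r, t r ≠ 0 := by
      by_contra hcon
      push Not at hcon
      refine h1 ?_
      rw [e, Sys.prodFrom, Sys.wU]
      refine List.prod_eq_one fun x hx => ?_
      simp only [List.map_map, List.mem_map, Function.comp_apply] at hx
      obtain ⟨r, -, rfl⟩ := hx
      rw [hcon r, (Tbl.Valid.toSys.{u} hV).xU_zero]
    exact H (slevT T G r1).toNat f hf hfix h1 t ht e fun M hM => by
      have := hM r1 hr1
      omega
  intro m
  induction m using Nat.strong_induction_on with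
  | _ m ih =>
  intro f hf hfix h1 t ht he hmax
  -- a step with a nonzero coefficient
  by_cases hgood : ∃ e ∈ st.steps, kap (Tbl.Valid.toSys.{u} hV) P e.root f ≠ 0
  · obtain ⟨e, hes, hc⟩ := hgood
    obtain ⟨Tρ, Tρ'⟩ := twStep_closed hV (hsteps e hes) hS hsym C hA
    obtain ⟨hρ1, hρ2, hρn⟩ := psi_pos hV Tρ.mem
    set c := kap (Tbl.Valid.toSys.{u} hV) P e.root f
    have hρC : C.rho e.root = G.img e.root := hA.img _
    have hρρ : C.rho (G.img e.root) = e.root := by rw [← hρC, C.rho_rho _ hρ2]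
    have hc' : kap (Tbl.Valid.toSys.{u} hV) P (C.rho e.root) f = C.φ c := by
      conv_lhs => rw [← hfix]
      exact kap_map (Tbl.Valid.toSys.{u} hV) (f := C.φ) Tρ (hρC ▸ Tρ') C.sg (fun r hr x => C.sg_xU r (hPpos r hr).2 x) hPrho
        hPpos (fun r hr k => by rw [← C.rho_rho r (hPpos r hr).2, k, C.rho_rho _ hρ2]) hf
    have hcφ : C.rho e.root = e.root → C.φ c = c := fun k => by rw [← hc', k]
    set X := C.ox e.root c with hX
    have hXP : X ∈ (Tbl.Valid.toSys.{u} hV).genBy F P := C.ox_mem_genBy hρ1 hρ2 Tρ.mem (hPrho _ Tρ.mem) _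
    have hXfix : C.sg X = X := C.ox_fixed hρ2 hcφ
    set v := X⁻¹ * f with hv
    have hk1 : kap (Tbl.Valid.toSys.{u} hV) P e.root v = 0 ∧ kap (Tbl.Valid.toSys.{u} hV) P (G.img e.root) v = 0 := by
      refine ⟨?_, ?_⟩
      · rw [hv, kap_mul (Tbl.Valid.toSys.{u} hV) Tρ (inv_mem hXP) hf, kap_inv (Tbl.Valid.toSys.{u} hV) Tρ hXP, hX]
        unfold TwCtx.ox
        split_ifs with hd
        · rw [kap_xU_self (Tbl.Valid.toSys.{u} hV) Tρ, neg_add_cancel]
        · rw [kap_mul (Tbl.Valid.toSys.{u} hV) Tρ ((Tbl.Valid.toSys.{u} hV).xU_mem_genBy hρ1 hρ2 Tρ.mem _)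
              ((Tbl.Valid.toSys.{u} hV).xU_mem_genBy (hPpos _ (hPrho _ Tρ.mem)).1 (hPpos _ (hPrho _ Tρ.mem)).2 (hPrho _ Tρ.mem) _),
            kap_xU_self (Tbl.Valid.toSys.{u} hV) Tρ, kap_xU_ne (Tbl.Valid.toSys.{u} hV) Tρ (hPpos _ (hPrho _ Tρ.mem)).1 (hPpos _ (hPrho _ Tρ.mem)).2
              (hPrho _ Tρ.mem) hd, add_zero, neg_add_cancel]
      · rw [← hρC, hv, kap_mul (Tbl.Valid.toSys.{u} hV) (hρC ▸ Tρ') (inv_mem hXP) hf, kap_inv (Tbl.Valid.toSys.{u} hV) (hρC ▸ Tρ') hXP, hc', hX]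
        unfold TwCtx.ox
        split_ifs with hd
        · rw [hd, kap_xU_self (Tbl.Valid.toSys.{u} hV) Tρ, hcφ hd, neg_add_cancel]
        · rw [kap_mul (Tbl.Valid.toSys.{u} hV) (hρC ▸ Tρ') ((Tbl.Valid.toSys.{u} hV).xU_mem_genBy hρ1 hρ2 Tρ.mem _)
              ((Tbl.Valid.toSys.{u} hV).xU_mem_genBy (hPpos _ (hPrho _ Tρ.mem)).1 (hPpos _ (hPrho _ Tρ.mem)).2 (hPrho _ Tρ.mem) _),
            kap_xU_self (Tbl.Valid.toSys.{u} hV) (hρC ▸ Tρ'), kap_xU_ne (Tbl.Valid.toSys.{u} hV) (hρC ▸ Tρ') hρ1 hρ2 Tρ.mem (Ne.symm hd), zero_add,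
            neg_add_cancel]
    have hvP : v ∈ (Tbl.Valid.toSys.{u} hV).genBy F P := mul_mem (inv_mem hXP) hf
    refine ⟨e, hes, c, hc, hcφ, v, ?_, ?_, ?_⟩
    · exact (Tbl.Valid.toSys.{u} hV).genBy_mono (fun r _ _ h => ⟨h.1, h.2.2⟩)
        ((Tbl.Valid.toSys.{u} hV).genBy_inf_le Tρ.closed_del Tρ'.closed_del
          (Subgroup.mem_inf.2 ⟨kap_mem (Tbl.Valid.toSys.{u} hV) Tρ hvP hk1.1, kap_mem (Tbl.Valid.toSys.{u} hV) Tρ' hvP hk1.2⟩))
    · rw [hv, map_mul, map_inv, hXfix, hfix]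
    · rw [show X * v = f by rw [hv, mul_inv_cancel_left]]
      exact CnjT.refl _ _ _
  push Not at hgood
  -- all the coefficients at the steps vanish
  have hin : ∀ e ∈ st.steps, f ∈ (Tbl.Valid.toSys.{u} hV).genBy F (fun r => (P r ∧ r ≠ e.root) ∧ r ≠ G.img e.root) := by
    intro e hes
    obtain ⟨Tρ, Tρ'⟩ := twStep_closed hV (hsteps e hes) hS hsym C hA
    have hρ2 := Tρ.pos.2
    have h0' : kap (Tbl.Valid.toSys.{u} hV) P (G.img e.root) f = 0 := by
      rw [← hA.img, ← hfix, kap_map (Tbl.Valid.toSys.{u} hV) (f := C.φ) Tρ ((hA.img e.root).symm ▸ Tρ') C.sg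
        (fun r hr x => C.sg_xU r (hPpos r hr).2 x) hPrho hPpos
        (fun r hr k => by rw [← C.rho_rho r (hPpos r hr).2, k, C.rho_rho _ hρ2]) hf,
        hgood e hes, map_zero]
    exact (Tbl.Valid.toSys.{u} hV).genBy_mono (fun r _ _ h => ⟨h.1, h.2.2⟩)
      ((Tbl.Valid.toSys.{u} hV).genBy_inf_le Tρ.closed_del Tρ'.closed_del
        (Subgroup.mem_inf.2 ⟨kap_mem (Tbl.Valid.toSys.{u} hV) Tρ hf (hgood e hes), kap_mem (Tbl.Valid.toSys.{u} hV) Tρ' hf h0'⟩))
  have hne0 : ∃ r, t r ≠ 0 := by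
    by_contra hcon
    push Not at hcon
    refine h1 ?_
    rw [he, Sys.prodFrom, Sys.wU]
    refine List.prod_eq_one fun x hx => ?_
    simp only [List.map_map, List.mem_map, Function.comp_apply] at hx
    obtain ⟨r, -, rfl⟩ := hx
    rw [hcon r, (Tbl.Valid.toSys.{u} hV).xU_zero]
  -- a root of least level
  have hpos : ∀ r, t r ≠ 0 → P r := fun r hr => by
    by_contra h; exact hr (ht r fun k => h k.1)
  set A := (Finset.range D.nroots).filter fun r => t r ≠ 0 with hAdef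
  have hAne : A.Nonempty := by
    obtain ⟨r, hr⟩ := hne0
    exact ⟨r, Finset.mem_filter.2 ⟨Finset.mem_range.2 (hPpos r (hpos r hr)).2, hr⟩⟩
  obtain ⟨r0, hr0A, hr0min⟩ := A.exists_min_image (slevT T G) hAne
  have hr0 : t r0 ≠ 0 := (Finset.mem_filter.1 hr0A).2
  have hr0P := hpos r0 hr0
  obtain ⟨hr01, hr02⟩ := hPpos r0 hr0P
  have hspos : ∀ r, P r → 0 < slevT T G r := fun r h => by
    rw [hslev]
    have := (Tbl.Valid.toSys.{u} hV).lev_pos (hPpos r h).2 (hPpos r h).1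
    have := (Tbl.Valid.toSys.{u} hV).lev_pos (hPpos _ (hPrho r h)).2 (hPpos _ (hPrho r h)).1
    omega
  have hm0 : (slevT T G r0).toNat ≤ m := hmax _ fun r hr => by
    have := hr0min r (Finset.mem_filter.2 ⟨Finset.mem_range.2 (hPpos r (hpos r hr)).2, hr⟩)
    have := hspos r0 hr0P
    omega
  rcases hall r0 (psi_pos hV hr0P).2.2 with k | k
  · exact absurd (hr0P.symm.trans k) (by decide)
  obtain ⟨-, k | k⟩ := k
  · obtain ⟨e, hes, hre⟩ := k
    exfalso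
    obtain ⟨Tρ, Tρ'⟩ := twStep_closed hV (hsteps e hes) hS hsym C hA
    rcases hre with hre | hre
    · obtain ⟨t', ht', het'⟩ := exists_coords (Tbl.Valid.toSys.{u} hV) Tρ.closed_del ((Tbl.Valid.toSys.{u} hV).genBy_mono (fun _ _ _ h => h.1) (hin e hes))
      rw [he] at het'
      apply hr0
      rw [(Tbl.Valid.toSys.{u} hV).prodFrom_inj le_rfl het' r0 hr01 hr02]
      exact ht' r0 fun h => h.1.2 (Nat.eq_of_beq_eq_true hre)
    · obtain ⟨t', ht', het'⟩ := exists_coords (Tbl.Valid.toSys.{u} hV) Tρ'.closed_del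
        ((Tbl.Valid.toSys.{u} hV).genBy_mono (fun _ _ _ h => ⟨h.1.1, h.2⟩) (hin e hes))
      rw [he] at het'
      apply hr0
      rw [(Tbl.Valid.toSys.{u} hV).prodFrom_inj le_rfl het' r0 hr01 hr02]
      exact ht' r0 fun h => h.1.2 (Nat.eq_of_beq_eq_true hre)
  obtain ⟨e, hes, hlow⟩ := k
  obtain ⟨Tρ, Tρ'⟩ := twStep_closed hV (hsteps e hes) hS hsym C hA
  have hst' := hsteps e hes
  simp only [twStepOK, Bool.and_eq_true, List.all_eq_true, List.mem_range, Bool.or_eq_true,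
    Bool.not_eq_true', decide_eq_true_eq] at hst'
  obtain ⟨⟨⟨⟨⟨⟨⟨⟨⟨⟨⟨⟨⟨⟨⟨⟨hp1, hb1⟩, hp2⟩, hb2⟩, -⟩, -⟩, -⟩, -⟩, -⟩, hpath⟩, hpath'⟩, -⟩, -⟩, -⟩, hfixS⟩, -⟩,
    hQall⟩ := hst'
  set L := e.refl G with hLdef
  have hL : ∀ q ∈ L, q < T.l := by
    intro q hq
    rw [hLdef, TwStep.refl] at hq
    rcases List.mem_append.1 hq with h | h
    · simp only [List.mem_append, List.mem_singleton, List.mem_reverse] at h
      rcases h with (h | rfl) | h
      exacts [Nat.le_of_ble_eq_true (hp1 q h), Nat.le_of_ble_eq_true hb1, Nat.le_of_ble_eq_true (hp1 q h)]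
    · cases hb : Nat.beq (G.img e.root) e.root <;> rw [hb] at h
      · simp only [cond_false, List.mem_append, List.mem_singleton, List.mem_reverse] at h
        rcases h with (h | rfl) | h
        exacts [Nat.le_of_ble_eq_true (hp2 q h), Nat.le_of_ble_eq_true hb2, Nat.le_of_ble_eq_true (hp2 q h)]
      · simp at h
  let Q : ℕ → Prop := fun r => (P r ∧ r ≠ e.root) ∧ r ≠ G.img e.root
  have hQm : ∀ r, Q r → Q (wAct T L r) ∧ wAct T L (wAct T L r) = r := by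
    rintro r ⟨⟨q1, q2⟩, q3⟩
    rcases hQall r (psi_pos hV q1).2.2 with (k | k | k) | k
    · exact absurd (q1.symm.trans k) (by decide)
    · exact absurd (Nat.eq_of_beq_eq_true k) q2
    · exact absurd (Nat.eq_of_beq_eq_true k) q3
    · obtain ⟨⟨⟨⟨⟨a1, a2⟩, a3⟩, a4⟩, -⟩, -⟩ := k
      refine ⟨⟨⟨a1, fun e' => ?_⟩, fun e' => ?_⟩, Nat.eq_of_beq_eq_true a4⟩
      · rw [e', show Nat.beq e.root e.root = true from Nat.beq_refl _] at a2
        exact absurd a2 (by decide)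
      · rw [e', show Nat.beq (G.img e.root) (G.img e.root) = true from Nat.beq_refl _] at a3
        exact absurd a3 (by decide)
  set N := (Tbl.Valid.toSys.{u} hV).nw F L with hN
  have hNx : ∀ r, r < T.n → ∀ x : F, N * (Tbl.Valid.toSys.{u} hV).xU r x * N⁻¹ = (Tbl.Valid.toSys.{u} hV).xU (wAct T L r) x := fun r hr x =>
    nw_xU hV hL hr x
  have hNG : N ∈ C.G1 := by
    obtain ⟨hMG, -, hNw0⟩ := orbit_refl hV (hsteps e hes) hsym C hA
    rw [hN, hLdef, hNw0]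
    exact hMG 1 fun _ => map_one _
  have hNfix : C.sg N = N := C.fixed N hNG
  have hNz : Commute N (wOne hV F st.roots) := by
    refine wOne_commute hV fun s hs' => ?_
    have := hNx s (hS s hs') 1
    rw [Nat.eq_of_beq_eq_true (hfixS s hs').1.1, mul_inv_eq_iff_eq_mul] at this
    exact this
  set f' := N * f * N⁻¹ with hf'
  have hf'Q : f' ∈ (Tbl.Valid.toSys.{u} hV).genBy F Q := by
    have : (Tbl.Valid.toSys.{u} hV).genBy F Q ≤ ((Tbl.Valid.toSys.{u} hV).genBy F Q).comap (MulAut.conj N).toMonoidHom :=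
      (Tbl.Valid.toSys.{u} hV).genBy_le fun r a1 a2 a3 x => by
        show N * (Tbl.Valid.toSys.{u} hV).xU r x * N⁻¹ ∈ (Tbl.Valid.toSys.{u} hV).genBy F Q
        rw [hNx r (psi_pos hV a3.1.1).2.2]
        exact (Tbl.Valid.toSys.{u} hV).xU_mem_genBy (hPpos _ (hQm r a3).1.1.1).1 (hPpos _ (hQm r a3).1.1.1).2 (hQm r a3).1 x
    exact this (hin e hes)
  have hf'P : f' ∈ (Tbl.Valid.toSys.{u} hV).genBy F P := (Tbl.Valid.toSys.{u} hV).genBy_mono (fun _ _ _ h => h.1.1) hf'Q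
  have hf'fix : C.sg f' = f' := by rw [hf', map_mul, map_mul, map_inv, hNfix, hfix]
  have hf'ne : f' ≠ 1 := fun e' => h1 (conj_eq_one_iff.1 e')
  obtain ⟨t', ht', he'⟩ := exists_coords (Tbl.Valid.toSys.{u} hV) hP hf'P
  have hp0 : 0 ≤ slevT T G r0 := le_of_lt (hspos r0 hr0P)
  have hexlow : ∃ r, t' r ≠ 0 ∧ slevT T G r < slevT T G r0 := by
    by_contra hcon
    push Not at hcon
    let Pk : ℕ → Prop := fun r => P r ∧ slevT T G r0 ≤ slevT T G r
    have hPk : (Tbl.Valid.toSys.{u} hV).IsClosedRootSet Pk := fun r s w q1 q2 q3 q4 q5 q6 q7 q8 q9 => by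
      refine ⟨hP r s w q1 q2 q3 q4 q5 q6 q7.1 q8.1 q9, ?_⟩
      obtain ⟨a', b', ha', hb', hh⟩ := q9
      have c1 := hspos r q7.1
      have c2 := hspos s q8.1
      have e1 := lev_comb (Tbl.Valid.toSys.{u} hV) hh
      have e2 := lev_comb (Tbl.Valid.toSys.{u} hV) (C.rho_lin r s w q2 q4 q6 a' b' hh)
      have := q7.2
      rw [hslev w, e1, e2]
      rw [hslev r] at this c1
      rw [hslev s] at c2
      nlinarith
    have hmem : f' ∈ (Tbl.Valid.toSys.{u} hV).genBy F Pk := by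
      rw [he', Sys.prodFrom, Sys.wU]
      refine Subgroup.list_prod_mem _ fun x hx => ?_
      simp only [List.map_map, List.mem_map, List.mem_range'_1, Function.comp_apply] at hx
      obtain ⟨r, hr, rfl⟩ := hx
      by_cases h0 : t' r = 0
      · rw [h0, (Tbl.Valid.toSys.{u} hV).xU_zero]; exact one_mem _
      · have hPr : P r := by
          by_contra hP'
          exact h0 (ht' r fun h => hP' h.1)
        exact (Tbl.Valid.toSys.{u} hV).xU_mem_genBy hr.1 (by omega) ⟨hPr, hcon r h0⟩ _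
    have hQcl : (Tbl.Valid.toSys.{u} hV).IsClosedRootSet Q := fun r s w q1 q2 q3 q4 q5 q6 a1 a2 a3 =>
      ⟨(IsTop.closed_del _ Tρ) r s w q1 q2 q3 q4 q5 q6 a1.1 a2.1 a3,
        ((IsTop.closed_del _ Tρ') r s w q1 q2 q3 q4 q5 q6 ⟨a1.1.1, a1.2⟩ ⟨a2.1.1, a2.2⟩ a3).2⟩
    have hcap := (Tbl.Valid.toSys.{u} hV).genBy_inf_le hQcl hPk (Subgroup.mem_inf.2 ⟨hf'Q, hmem⟩)
    let R' : ℕ → Prop := fun r => Q r ∧ slevT T G r0 ≤ slevT T G (wAct T L r)
    have hR' : f ∈ (Tbl.Valid.toSys.{u} hV).genBy F R' := by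
      have hle : (Tbl.Valid.toSys.{u} hV).genBy F (fun r => Q r ∧ Pk r) ≤ ((Tbl.Valid.toSys.{u} hV).genBy F R').comap (MulAut.conj N⁻¹).toMonoidHom :=
        (Tbl.Valid.toSys.{u} hV).genBy_le fun r a1 a2 a3 x => by
          show N⁻¹ * (Tbl.Valid.toSys.{u} hV).xU r x * N⁻¹⁻¹ ∈ (Tbl.Valid.toSys.{u} hV).genBy F R'
          obtain ⟨hi1, hi2⟩ := hQm r a3.1
          have e6 := hNx _ (psi_pos hV hi1.1.1).2.2 x
          rw [hi2] at e6
          rw [← e6, show N⁻¹ * (N * (Tbl.Valid.toSys.{u} hV).xU (wAct T L r) x * N⁻¹) * N⁻¹⁻¹ = (Tbl.Valid.toSys.{u} hV).xU (wAct T L r) x by group]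
          exact (Tbl.Valid.toSys.{u} hV).xU_mem_genBy (hPpos _ hi1.1.1).1 (hPpos _ hi1.1.1).2 ⟨hi1, by rw [hi2]; exact a3.2.2⟩ x
      have := hle hcap
      simpa [hf', mul_assoc] using this
    have hR'cl : (Tbl.Valid.toSys.{u} hV).IsClosedRootSet R' := fun a b w q1 q2 q3 q4 q5 q6 q7 q8 q9 => by
      obtain ⟨a', b', ha', hb', hh⟩ := q9
      have hn := hV.linked.nroots
      have hQw := hQcl a b w q1 q2 q3 q4 q5 q6 q7.1 q8.1 ⟨a', b', ha', hb', hh⟩
      refine ⟨hQw, ?_⟩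
      have hv1 := vec_wAct hV hL (r := a) (s := b) (v := w) (hn ▸ q2) (hn ▸ q4) (hn ▸ q6) hh
      have p1 := (hQm a q7.1).1.1.1
      have p2 := (hQm b q8.1).1.1.1
      have e1 := lev_comb (Tbl.Valid.toSys.{u} hV) hv1
      have e2 := lev_comb (Tbl.Valid.toSys.{u} hV) (C.rho_lin _ _ _ (hPpos _ p1).2 (hPpos _ p2).2
        (hPpos _ (hQm w hQw).1.1.1).2 a' b' hv1)
      have c1 := hspos _ p1
      have c2 := hspos _ p2
      have := q7.2
      rw [hslev (wAct T L a)] at this c1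
      rw [hslev (wAct T L b)] at c2
      rw [hslev (wAct T L w), e1, e2]
      nlinarith
    obtain ⟨t2, ht2, he2⟩ := exists_coords (Tbl.Valid.toSys.{u} hV) hR'cl hR'
    rw [he] at he2
    apply hr0
    rw [(Tbl.Valid.toSys.{u} hV).prodFrom_inj le_rfl he2 r0 hr01 hr02]
    exact ht2 r0 fun h => by
      have := h.1.2
      omega
  obtain ⟨r1, hr1, hr1lt⟩ := hexlow
  have hlt : (slevT T G r1).toNat < m := by
    have hP1 : P r1 := by
      by_contra hP'
      exact hr1 (ht' r1 fun h => hP' h.1)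
    have := hspos r1 hP1
    omega
  obtain ⟨e2, he2, c, hc, hcφ, v, hv, hvfix, hcj⟩ := ih _ hlt f' hf'P hf'fix hf'ne t' ht' he' fun M hM => by
    have := hM r1 hr1
    omega
  exact ⟨e2, he2, c, hc, hcφ, v, hv, hvfix, CnjT.trans ⟨N, hNG, hNz, rfl⟩ hcj⟩

end CfsgLib.Chev.CharTwoInvol
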