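import Cfsg.Agent.Chev.CharTwoInvol.Table

/-!
# Tables of orbits of orthogonal roots under a symmetry of order two
-/

set_option autoImplicit false

namespace CfsgLib.Chev.CharTwoInvol

open Cfsg.Lie CfsgLib.Chev

/-- A symmetry of the roots and of the fundamental roots, with the orbits on the latter. -/
structure Sym where
  /-- the symmetry on the roots -/
  rho : List ℕ
  /-- the symmetry on the fundamental roots -/
  tau : List ℕ
  /-- the orbits of fundamental roots -/
  mem : List (List ℕ)
  /-- a word in the orbits for the longest element -/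
  long : List ℕ

/-- The image of a root. -/
def Sym.img (G : Sym) (r : ℕ) : ℕ := G.rho.getD r 0

/-- A word in the orbits as a word in the fundamental reflections. -/
def Sym.word (G : Sym) (L : List ℕ) : List ℕ := L.flatMap fun j => G.mem.getD j []

/-- The orbit of a root. -/
def Sym.orb (G : Sym) (r : ℕ) : List ℕ := cond (Nat.beq (G.img r) r) [r] [r, G.img r]

/-- The level on the tables. -/
noncomputable def levT (T : Tbl) (r : ℕ) : ℤ :=
  ((List.range T.l).map fun i => T.wt.getD i 0 * T.vecAt r i).sum

/-- The symmetrised level on the tables. -/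
noncomputable def slevT (T : Tbl) (G : Sym) (r : ℕ) : ℤ := levT T r + levT T (G.img r)

/-- The check of the symmetry. -/
noncomputable def symOK (T : Tbl) (G : Sym) : Bool :=
  (List.range T.n).all (fun r => Nat.blt (G.img r) T.n && Nat.beq (G.img (G.img r)) r &&
    (Nat.ble (T.n / 2) (G.img r) == Nat.ble (T.n / 2) r) &&
    Nat.beq (G.img (T.negAt r)) (T.negAt (G.img r)) && commEven T r (G.img r) &&
    (List.range T.l).all fun a => decide (T.vecAt (G.img r) a = T.vecAt r (G.tau.getD a 0)) &&
      Nat.blt (G.tau.getD a 0) T.l) &&
  (let L := G.word G.long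
   L.all (fun q => Nat.blt q T.l) && (List.range T.n).all fun r =>
    Nat.ble (T.n / 2) r || Nat.ble (T.n / 2) (wAct T L r))

/-- An orbit of fundamental roots of the orthogonal system of a state, with the next state. -/
structure TwStep where
  /-- the root -/
  root : ℕ
  /-- a word carrying a fundamental root to it -/
  path : List ℕ
  /-- the fundamental root -/
  base : ℕ
  /-- a word carrying a fundamental root to its image -/
  path' : List ℕ
  /-- the fundamental root -/
  base' : ℕ
  /-- the next state -/
  next : ℕ
  /-- the word in orbits carrying the roots to the next state -/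
  move : List ℕ

/-- A symmetric set of orthogonal positive roots. -/
structure TwState where
  /-- the roots -/
  roots : List ℕ
  /-- the steps -/
  steps : List TwStep

/-- The word of the reflection of a step. -/
def TwStep.refl (e : TwStep) (G : Sym) : List ℕ :=
  (e.path ++ [e.base] ++ e.path.reverse) ++
    cond (Nat.beq (G.img e.root) e.root) [] (e.path' ++ [e.base'] ++ e.path'.reverse)

/-- The check of one step. -/
noncomputable def twStepOK (T : Tbl) (G : Sym) (sts : List TwState) (i : ℕ) (st : TwState)
    (e : TwStep) : Bool :=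
  let ρ := e.root
  let ρ' := G.img e.root
  let L := e.refl G
  let W := G.word e.move
  let nx := sts.getD e.next ⟨[], []⟩
  e.path.all (fun q => Nat.blt q T.l) && Nat.blt e.base T.l &&
  e.path'.all (fun q => Nat.blt q T.l) && Nat.blt e.base' T.l && W.all (fun q => Nat.blt q T.l) &&
  Nat.blt i e.next && Nat.blt e.next sts.length &&
  psi T st.roots ρ && psi T st.roots ρ' &&
  Nat.beq (wAct T e.path (T.simpleAt e.base)) ρ && Nat.beq (wAct T e.path' (T.simpleAt e.base')) ρ' &&
  Nat.beq (wAct T L ρ) (T.negAt ρ) && Nat.beq (wAct T L ρ') (T.negAt ρ') &&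
  (Nat.beq ρ' ρ || (commEven T ρ (T.negAt ρ') && commEven T (T.negAt ρ) ρ' &&
    decide (prT T ρ ρ' = 0))) &&
  st.roots.all (fun s => Nat.beq (wAct T L s) s && decide (prT T s ρ = 0) && decide (prT T s ρ' = 0)) &&
  ((st.roots ++ G.orb ρ).map (wAct T W)).isPerm nx.roots &&
  (List.range T.n).all fun r => !psi T st.roots r || (Nat.beq r ρ || Nat.beq r ρ') ||
    (psi T st.roots (wAct T L r) && !Nat.beq (wAct T L r) ρ && !Nat.beq (wAct T L r) ρ' &&
      Nat.beq (wAct T L (wAct T L r)) r && Nat.beq (wAct T L (G.img r)) (G.img (wAct T L r)) &&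
      (!Nat.beq (wAct T L r) r ||
        (commEven T ρ r && commEven T ρ' r && psi T nx.roots (wAct T W r))))

/-- The check of one state. -/
noncomputable def twStateOK (T : Tbl) (G : Sym) (sts : List TwState) (i : ℕ) : Bool :=
  let st := sts.getD i ⟨[], []⟩
  allComm T st.roots && st.steps.all (twStepOK T G sts i st) &&
  (List.range T.n).all fun r => !psi T st.roots r ||
    (st.roots.all (fun s => commEven T r s) && psi T st.roots (G.img r) &&
      (st.steps.any (fun e => Nat.beq r e.root || Nat.beq r (G.img e.root)) ||
        st.steps.any fun e => decide (slevT T G (wAct T (e.refl G) r) < slevT T G r)))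

/-- The check of the table of states. -/
noncomputable def twNormalOK (T : Tbl) (G : Sym) (sts : List TwState) : Bool :=
  symOK T G && Nat.blt 0 sts.length && (sts.getD 0 ⟨[], []⟩).roots.isEmpty &&
  (List.range sts.length).all fun i => twStateOK T G sts i

/-- A conjugation in the fixed group: by a word in orbits, by orbit elements with parameter one, or by
one orbit element whose parameter has trace one. -/
inductive TwMove where
  | weyl (w : List ℕ) (tgt : List ℕ)
  | word (w : List ℕ) (tgt : List ℕ)
  | trace (r : ℕ) (tgt : List ℕ)

/-- The end of a chain. -/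
noncomputable def twChainEnd : List TwMove → List ℕ → List ℕ
  | [], L => L
  | .weyl _ t :: ms, _ => twChainEnd ms t
  | .word _ t :: ms, _ => twChainEnd ms t
  | .trace _ t :: ms, _ => twChainEnd ms t

/-- The polynomial `t`. -/
def polyT : List (ℤ × ℕ × ℕ) := [(1, 1, 0)]

/-- The polynomial `1`. -/
def polyOne : List (ℤ × ℕ × ℕ) := [(1, 0, 0)]

/-- The word of the orbit element with parameters `t`, `1 + t`. -/
def traceWord (G : Sym) (r : ℕ) : List (ℕ × List (ℤ × ℕ × ℕ)) :=
  [(r, polyT), (G.img r, polyOne ++ polyT)]

/-- A word with parameters one. -/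
def oneWord (L : List ℕ) : List (ℕ × List (ℤ × ℕ × ℕ)) := L.map fun r => (r, polyOne)

end CfsgLib.Chev.CharTwoInvol
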