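import Cfsg.Agent.Chev.CharTwoInvol.Coef
import Cfsg.Agent.Chev.CharTwoInvol.Normal
import Cfsg.Agent.Chev.CharTwoInvol.TwTable

/-!
# Twisted groups: removing the orbits of roots moved by a reflection from a fixed involution
-/

set_option autoImplicit false

namespace CfsgLib.Chev.CharTwoInvol

open Cfsg.Lie Matrix CfsgLib.Chev

universe u

variable {D : ChevalleyDatum} (S : Sys.{u} D) {F : Type u} [Field F]

/-- Conjugacy by an element of a subgroup commuting with a given element. -/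
def CnjT (H : Subgroup (GL D.Idx F)) (z x y : GL D.Idx F) : Prop :=
  ∃ h ∈ H, Commute h z ∧ h * x * h⁻¹ = y

theorem CnjT.refl (H : Subgroup (GL D.Idx F)) (z x : GL D.Idx F) : CnjT H z x x :=
  ⟨1, one_mem _, Commute.one_left _, by simp⟩

theorem CnjT.trans {H : Subgroup (GL D.Idx F)} {z x y w : GL D.Idx F} (h₁ : CnjT H z x y)
    (h₂ : CnjT H z y w) : CnjT H z x w := by
  obtain ⟨g, hg, c, rfl⟩ := h₁
  obtain ⟨h, hh, c', rfl⟩ := h₂
  exact ⟨h * g, mul_mem hh hg, c'.mul_left c, by group⟩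

theorem CnjT.sq {H : Subgroup (GL D.Idx F)} {z x y : GL D.Idx F} (h : CnjT H z x y) (hx : x * x = 1) :
    y * y = 1 := by
  obtain ⟨g, -, -, rfl⟩ := h
  rw [show g * x * g⁻¹ * (g * x * g⁻¹) = g * (x * x) * g⁻¹ by group, hx]
  group

/-- The fixed group of an endomorphism permuting the root subgroups by an involution. -/
structure TwCtx (F : Type u) [Field F] where
  /-- the group -/
  G1 : Subgroup (GL D.Idx F)
  /-- the endomorphism -/
  sg : GL D.Idx F →* GL D.Idx F
  /-- the field endomorphism -/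
  φ : F →+* F
  /-- the symmetry -/
  rho : ℕ → ℕ
  /-- an element of trace one -/
  θ : F
  sg_xU : ∀ r < D.nroots, ∀ t, sg (S.xU r t) = S.xU (rho r) (φ t)
  φ_φ : ∀ t, φ (φ t) = t
  θ_spec : θ + φ θ = 1
  rho_lt : ∀ r < D.nroots, rho r < D.nroots
  rho_rho : ∀ r < D.nroots, rho (rho r) = r
  rho_pos : ∀ r < D.nroots, (D.nroots / 2 ≤ rho r ↔ D.nroots / 2 ≤ r)
  rho_comm : ∀ r < D.nroots, ∀ t v : F, Commute (S.xU r t) (S.xU (rho r) v)
  rho_lin : ∀ r s v, r < D.nroots → s < D.nroots → v < D.nroots → ∀ i j : ℤ,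
    (∀ a < D.rank, S.vec v a = i * S.vec r a + j * S.vec s a) →
      ∀ a < D.rank, S.vec (rho v) a = i * S.vec (rho r) a + j * S.vec (rho s) a
  fixed : ∀ g ∈ G1, sg g = g
  le_group : G1 ≤ D.group F
  of_pos : ∀ g ∈ D.posUnipotent F, sg g = g → g ∈ G1
  of_neg : ∀ g ∈ D.negUnipotent F, sg g = g → g ∈ G1

variable {S} (C : TwCtx S F)

/-- The root element of an orbit. -/
def TwCtx.ox (r : ℕ) (t : F) : GL D.Idx F :=
  if C.rho r = r then S.xU r t else S.xU r t * S.xU (C.rho r) (C.φ t)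

theorem TwCtx.ox_fixed {r : ℕ} (hr : r < D.nroots) {t : F} (ht : C.rho r = r → C.φ t = t) :
    C.sg (C.ox r t) = C.ox r t := by
  unfold TwCtx.ox
  split_ifs with h
  · rw [C.sg_xU r hr, h, ht h]
  · rw [map_mul, C.sg_xU r hr, C.sg_xU _ (C.rho_lt r hr), C.rho_rho r hr, C.φ_φ]
    exact ((C.rho_comm r hr t (C.φ t)).eq).symm

theorem TwCtx.ox_mem_pos {r : ℕ} (h1 : D.nroots / 2 ≤ r) (h2 : r < D.nroots) (t : F) :
    C.ox r t ∈ D.posUnipotent F := by
  unfold TwCtx.ox
  split_ifs
  · exact S.xU_mem_posUnipotent h1 h2 t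
  · exact mul_mem (S.xU_mem_posUnipotent h1 h2 t)
      (S.xU_mem_posUnipotent ((C.rho_pos r h2).2 h1) (C.rho_lt r h2) _)

theorem TwCtx.ox_mem {r : ℕ} (hr : r < D.nroots) {t : F} (ht : C.rho r = r → C.φ t = t) :
    C.ox r t ∈ C.G1 := by
  by_cases h : D.nroots / 2 ≤ r
  · exact C.of_pos _ (C.ox_mem_pos h hr t) (C.ox_fixed hr ht)
  · refine C.of_neg _ ?_ (C.ox_fixed hr ht)
    have hm : ∀ x < D.nroots, ¬ D.nroots / 2 ≤ x → ∀ v : F, S.xU x v ∈ D.negUnipotent F :=
      fun x _ hx' v => Subgroup.subset_closure ⟨x, v, (S.isNeg_iff x).2 (not_le.1 hx'), rfl⟩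
    unfold TwCtx.ox
    split_ifs
    · exact hm r hr h t
    · exact mul_mem (hm r hr h t) (hm _ (C.rho_lt r hr) (fun k => h ((C.rho_pos r hr).1 k)) _)

theorem TwCtx.ox_mem_genBy {P : ℕ → Prop} {r : ℕ} (h1 : D.nroots / 2 ≤ r) (h2 : r < D.nroots)
    (hr : P r) (hr' : P (C.rho r)) (t : F) : C.ox r t ∈ S.genBy F P := by
  unfold TwCtx.ox
  split_ifs
  · exact S.xU_mem_genBy h1 h2 hr t
  · exact mul_mem (S.xU_mem_genBy h1 h2 hr t)
      (S.xU_mem_genBy ((C.rho_pos r h2).2 h1) (C.rho_lt r h2) hr' _)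

/-- The hypotheses on the reflection. -/
structure TwPairData (Q : ℕ → Prop) (p : ℕ → ℕ) : Prop where
  base : PairData S Q p
  rhoQ : ∀ r, Q r → Q (C.rho r)
  comm : ∀ r, Q r → p (C.rho r) = C.rho (p r)

variable {Q : ℕ → Prop} {p : ℕ → ℕ}

/-- The symmetrised order of the orbits. -/
def code4 (p : ℕ → ℕ) (r : ℕ) : ℕ :=
  ((S.lev r + S.lev (p r)) + (S.lev (C.rho r) + S.lev (p (C.rho r)))).toNat * D.nroots +
    min (min r (p r)) (min (C.rho r) (p (C.rho r)))

/-- The remaining roots. -/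
def Rem4 (Q : ℕ → Prop) (p : ℕ → ℕ) (c r : ℕ) : Prop := Q r ∧ (p r = r ∨ c ≤ code4 C p r)

theorem code4_gt (hp : TwPairData C Q p) {r s v : ℕ} (hr : Q r) (hs : Q s) (hv : Q v) {i j : ℤ}
    (hi : 1 ≤ i) (hj : 1 ≤ j) (h : ∀ a < D.rank, S.vec v a = i * S.vec r a + j * S.vec s a) :
    code4 C p r < code4 C p v ∧ code4 C p s < code4 C p v ∧ (p r = r → p s = s → p v = v) := by
  have B := hp.base
  have hr' := B.pos r hr
  have hs' := B.pos s hs
  have hv' := B.pos v hv
  have e1 := lev_comb S h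
  have e2 := B.linear r s v hr'.2 hs'.2 hv'.2 i j h
  have h' := C.rho_lin r s v hr'.2 hs'.2 hv'.2 i j h
  have e3 := lev_comb S h'
  have e4 := B.linear _ _ _ (B.pos _ (hp.rhoQ r hr)).2 (B.pos _ (hp.rhoQ s hs)).2
    (B.pos _ (hp.rhoQ v hv)).2 i j h'
  have lp : ∀ x, Q x → 0 < S.lev x := fun x hx => S.lev_pos (B.pos x hx).2 (B.pos x hx).1
  have a1 := lp r hr
  have a2 := lp _ (B.map r hr)
  have a3 := lp _ (hp.rhoQ r hr)
  have a4 := lp _ (B.map _ (hp.rhoQ r hr))
  have b1 := lp s hs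
  have b2 := lp _ (B.map s hs)
  have b3 := lp _ (hp.rhoQ s hs)
  have b4 := lp _ (B.map _ (hp.rhoQ s hs))
  have key : ∀ x, Q x → (S.lev x + S.lev (p x)) + (S.lev (C.rho x) + S.lev (p (C.rho x))) <
      (S.lev v + S.lev (p v)) + (S.lev (C.rho v) + S.lev (p (C.rho v))) →
      code4 C p x < code4 C p v := by
    intro x hx hlt
    have hlt' : ((S.lev x + S.lev (p x)) + (S.lev (C.rho x) + S.lev (p (C.rho x)))).toNat + 1 ≤
        ((S.lev v + S.lev (p v)) + (S.lev (C.rho v) + S.lev (p (C.rho v)))).toNat := by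
      have := lp x hx
      have := lp _ (B.map x hx)
      have := lp _ (hp.rhoQ x hx)
      have := lp _ (B.map _ (hp.rhoQ x hx))
      omega
    have hm : min (min x (p x)) (min (C.rho x) (p (C.rho x))) < D.nroots := by
      have := (B.pos x hx).2
      omega
    have := Nat.mul_le_mul_right D.nroots hlt'
    rw [add_mul, one_mul] at this
    unfold code4
    omega
  refine ⟨key r hr (by rw [e1, e2, e3, e4]; nlinarith), key s hs (by rw [e1, e2, e3, e4]; nlinarith),
    fun f1 f2 => ?_⟩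
  rw [f1, f2, ← e1] at e2
  have hpv := B.pos _ (B.map v hv)
  rcases lt_trichotomy (p v) v with k | k | k
  · exact absurd e2 (S.lev_lt k hv'.2).ne
  · exact k
  · exact absurd e2 (S.lev_lt k hpv.2).ne'

theorem rem4_closed (hp : TwPairData C Q p) (c : ℕ) : S.IsClosedRootSet (Rem4 C Q p c) := by
  intro r s v hr hr2 hs hs2 hv hv2 h1 h2 h3
  obtain ⟨i, j, hi, hj, h⟩ := h3
  have hQv : Q v := hp.base.closed r s v hr hr2 hs hs2 hv hv2 h1.1 h2.1 ⟨i, j, hi, hj, h⟩
  obtain ⟨c1, c2, c3⟩ := code4_gt C hp h1.1 h2.1 hQv hi hj h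
  refine ⟨hQv, ?_⟩
  rcases h1.2 with f1 | f1
  · rcases h2.2 with f2 | f2
    · exact Or.inl (c3 f1 f2)
    · exact Or.inr (by omega)
  · exact Or.inr (by omega)

theorem code4_rho (hp : TwPairData C Q p) {r : ℕ} (hr : Q r) : code4 C p (C.rho r) = code4 C p r := by
  unfold code4
  rw [C.rho_rho r (hp.base.pos r hr).2, add_comm (S.lev (C.rho r) + S.lev (p (C.rho r))),
    min_comm (min (C.rho r) (p (C.rho r)))]

theorem code4_p (hp : TwPairData C Q p) {r : ℕ} (hr : Q r) : code4 C p (p r) = code4 C p r := by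
  unfold code4
  rw [← hp.comm r hr, hp.base.invol r hr, hp.base.invol _ (hp.rhoQ r hr), add_comm (S.lev (p r)),
    add_comm (S.lev (p (C.rho r))), min_comm (p r), min_comm (p (C.rho r))]

variable [CharP F 2]

omit [CharP F 2] in
theorem min_four (x₁ x₂ x₃ x₄ : ℕ) :
    min (min x₁ x₂) (min x₃ x₄) = x₁ ∨ min (min x₁ x₂) (min x₃ x₄) = x₂ ∨
      min (min x₁ x₂) (min x₃ x₄) = x₃ ∨ min (min x₁ x₂) (min x₃ x₄) = x₄ := by
  rcases min_choice (min x₁ x₂) (min x₃ x₄) with h | h <;> rw [h]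
  · rcases min_choice x₁ x₂ with k | k <;> simp [k]
  · rcases min_choice x₃ x₄ with k | k <;> simp [k]

/-- The descent over the orbits. -/
theorem tw_pairs_descend (hp : TwPairData C Q p) {N z : GL D.Idx F}
    (hN2 : N * N = 1) (hNfix : C.sg N = N)
    (hN : ∀ r, Q r → ∀ t : F, N * S.xU r t * N⁻¹ = S.xU (p r) t)
    (hz : ∀ r, Q r → ∀ t : F, Commute (S.xU r t) z) :
    ∀ c, ∀ u ∈ S.genBy F (Rem4 C Q p c), C.sg u = u → (N * u) * (N * u) = 1 →
      ∃ f ∈ S.genBy F (fun r => Q r ∧ p r = r), C.sg f = f ∧ CnjT C.G1 z (N * u) (N * f) := by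
  classical
  have B := hp.base
  have hNi : N⁻¹ = N := inv_eq_of_mul_eq_one_right hN2
  intro c
  induction hm : Finset.card ((Finset.range D.nroots).filter fun r =>
      Q r ∧ p r ≠ r ∧ c ≤ code4 C p r) using Nat.strong_induction_on generalizing c with
  | _ m ih =>
  intro u hu hfix hsq
  set A := (Finset.range D.nroots).filter fun r => Q r ∧ p r ≠ r ∧ c ≤ code4 C p r with hA
  set P := Rem4 C Q p c with hP
  by_cases hA0 : A = ∅
  · refine ⟨u, S.genBy_mono (fun r h1 h2 h3 => ⟨h3.1, ?_⟩) hu, hfix, CnjT.refl _ _ _⟩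
    by_contra hne
    rw [Finset.filter_eq_empty_iff] at hA0
    exact hA0 (Finset.mem_range.2 h2) ⟨h3.1, hne, h3.2.resolve_left hne⟩
  obtain ⟨a, haA, hmin⟩ := A.exists_min_image (code4 C p) (Finset.nonempty_iff_ne_empty.2 hA0)
  obtain ⟨-, hQa, hpa, hca⟩ := Finset.mem_filter.1 haA
  set k := code4 C p a with hk
  have hlayer : ∀ x, Q x → p x ≠ x → code4 C p x = k → IsTop S P x := fun x hx hnx hxk =>
    { closed := rem4_closed C hp c
      mem := ⟨hx, Or.inr (hxk ▸ hca)⟩
      pos := B.pos x hx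
      indec := by
        intro r s hr hr2 hs hs2 hrP hsP i j hi hj h
        obtain ⟨c1, c2, c3⟩ := code4_gt C hp hrP.1 hsP.1 hx hi hj h
        by_cases fr : p r = r
        · by_cases fs : p s = s
          · exact hnx (c3 fr fs)
          · have := hmin s (Finset.mem_filter.2 ⟨Finset.mem_range.2 hs2, hsP.1, fs,
              hsP.2.resolve_left fs⟩)
            omega
        · have := hmin r (Finset.mem_filter.2 ⟨Finset.mem_range.2 hr2, hrP.1, fr,
            hrP.2.resolve_left fr⟩)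
          omega }
  have hPpos : ∀ r, P r → D.nroots / 2 ≤ r ∧ r < D.nroots := fun r h => B.pos r h.1
  have hPp : ∀ r, P r → P (p r) := fun r h => ⟨B.map r h.1, by
    rcases h.2 with e | e
    · exact Or.inl (by rw [e, e])
    · exact Or.inr (by rw [code4_p C hp h.1]; exact e)⟩
  have hPrho : ∀ r, P r → P (C.rho r) := fun r h => ⟨hp.rhoQ r h.1, by
    rcases h.2 with e | e
    · exact Or.inl (by rw [hp.comm r h.1, e])
    · exact Or.inr (by rw [code4_rho C hp h.1]; exact e)⟩
  let conjN : GL D.Idx F →* GL D.Idx F := (MulAut.conj N).toMonoidHom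
  have kN : ∀ x, Q x → p x ≠ x → code4 C p x = k → ∀ g ∈ S.genBy F P,
      kap S P (p x) (N * g * N⁻¹) = kap S P x g := by
    intro x hx hnx hxk g hg
    have hpx : p (p x) ≠ p x := fun e => hnx (by rw [B.invol x hx] at e; exact e.symm)
    exact kap_map S (f := RingHom.id F) (hlayer x hx hnx hxk)
      (hlayer _ (B.map x hx) hpx (by rw [code4_p C hp hx, hxk])) conjN
      (fun r hr t => hN r hr.1 t) hPp hPpos
      (fun r hr e => by rw [← B.invol r hr.1, e, B.invol x hx]) hg
  have kσ : ∀ x, Q x → p x ≠ x → code4 C p x = k → ∀ g ∈ S.genBy F P,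
      kap S P (C.rho x) (C.sg g) = C.φ (kap S P x g) := by
    intro x hx hnx hxk g hg
    have hn' : p (C.rho x) ≠ C.rho x := fun e => hnx (by
      rw [hp.comm x hx] at e
      have := congrArg C.rho e
      rwa [C.rho_rho _ (B.pos _ (B.map x hx)).2, C.rho_rho x (B.pos x hx).2] at this)
    exact kap_map S (f := C.φ) (hlayer x hx hnx hxk)
      (hlayer _ (hp.rhoQ x hx) hn' (by rw [code4_rho C hp hx, hxk])) C.sg
      (fun r hr t => C.sg_xU r (B.pos r hr.1).2 t) hPrho hPpos
      (fun r hr e => by rw [← C.rho_rho r (B.pos r hr.1).2, e, C.rho_rho x (B.pos x hx).2]) hg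
  have hconjP : ∀ g ∈ S.genBy F P, N * g * N⁻¹ ∈ S.genBy F P := by
    intro g hg
    have : S.genBy F P ≤ (S.genBy F P).comap conjN := S.genBy_le fun r h1 h2 h3 t => by
      show N * S.xU r t * N⁻¹ ∈ S.genBy F P
      rw [hN r h3.1]
      exact S.xU_mem_genBy (hPpos _ (hPp r h3)).1 (hPpos _ (hPp r h3)).2 (hPp r h3) t
    exact this hg
  -- the coefficients of the involution
  set α := kap S P a u with hα
  set b := p a with hb
  have hQb : Q b := B.map a hQa
  have hpb : p b = a := B.invol a hQa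
  have hnb : p b ≠ b := fun e => hpa (by rw [hpb] at e; exact e.symm)
  have hkb : code4 C p b = k := code4_p C hp hQa
  have hinv : ∀ x, Q x → p x ≠ x → code4 C p x = k → kap S P (p x) u = kap S P x u := by
    intro x hx hnx hxk
    have hpx : p (p x) ≠ p x := fun e => hnx (by rw [B.invol x hx] at e; exact e.symm)
    have hT := hlayer _ (B.map x hx) hpx (by rw [code4_p C hp hx, hxk])
    have e : N * u * N⁻¹ * u = 1 := by rw [hNi, ← hsq]; group
    have := kap_mul S hT (hconjP u hu) hu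
    rw [e, kap_one S hT, kN x hx hnx hxk u hu] at this
    exact (CharTwo.add_eq_zero.1 this.symm).symm
  set a' := C.rho a with ha'
  have hQa' : Q a' := hp.rhoQ a hQa
  have hka' : code4 C p a' = k := code4_rho C hp hQa
  have ha'' : C.rho a' = a := C.rho_rho a (B.pos a hQa).2
  have hna' : p a' ≠ a' := fun e => hpa (by
    rw [ha', hp.comm a hQa] at e
    have := congrArg C.rho e
    rwa [C.rho_rho _ (B.pos _ hQb).2, ha''] at this)
  have hαa' : kap S P a' u = C.φ α := by
    conv_lhs => rw [← hfix]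
    exact kσ a hQa hpa rfl u hu
  have hαb : kap S P b u = α := hinv a hQa hpa rfl
  set b' := p a' with hb'
  have hQb' : Q b' := B.map a' hQa'
  have hpb' : p b' = a' := B.invol a' hQa'
  have hαb' : kap S P b' u = C.φ α := by rw [hinv a' hQa' hna' hka', hαa']
  have Ta := hlayer a hQa hpa rfl
  have Tb := hlayer b hQb hnb hkb
  have Ta' := hlayer a' hQa' hna' hka'
  have Tb' := hlayer b' hQb' (fun e => hna' (by rw [hpb'] at e; exact e.symm))
    (by rw [code4_p C hp hQa', hka'])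
  -- the conjugating element
  obtain ⟨g, hgP, hgfix, hga⟩ : ∃ g ∈ S.genBy F P, C.sg g = g ∧
      kap S P b g + kap S P a g = α := by
    by_cases hab : a' = b
    · -- the symmetry agrees with the reflection
      have hφα : C.φ α = α := by rw [← hαa', hab, hαb]
      refine ⟨C.ox a (α * C.θ), C.ox_mem_genBy (B.pos a hQa).1 (B.pos a hQa).2 Ta.mem Ta'.mem _,
        C.ox_fixed (B.pos a hQa).2 (fun e => absurd (hab ▸ e : b = a) hpa), ?_⟩
      have hne : C.rho a ≠ a := fun e => hpa (hab ▸ e : b = a)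
      rw [TwCtx.ox, if_neg hne, ← ha', hab,
        kap_mul S Ta (S.xU_mem_genBy (B.pos a hQa).1 (B.pos a hQa).2 Ta.mem _)
          (S.xU_mem_genBy (B.pos b hQb).1 (B.pos b hQb).2 Tb.mem _),
        kap_mul S Tb (S.xU_mem_genBy (B.pos a hQa).1 (B.pos a hQa).2 Ta.mem _)
          (S.xU_mem_genBy (B.pos b hQb).1 (B.pos b hQb).2 Tb.mem _),
        kap_xU_self S Ta, kap_xU_ne S Ta (B.pos b hQb).1 (B.pos b hQb).2 Tb.mem hpa,
        kap_xU_ne S Tb (B.pos a hQa).1 (B.pos a hQa).2 Ta.mem (Ne.symm hpa), kap_xU_self S Tb,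
        zero_add, add_zero, map_mul, hφα, ← mul_add, add_comm (C.φ C.θ), C.θ_spec, mul_one]
    · refine ⟨C.ox a α, C.ox_mem_genBy (B.pos a hQa).1 (B.pos a hQa).2 Ta.mem Ta'.mem _,
        C.ox_fixed (B.pos a hQa).2 (fun e => by rw [← hαa', ha', e]), ?_⟩
      unfold TwCtx.ox
      split_ifs with hne
      · rw [kap_xU_self S Ta, kap_xU_ne S Tb (B.pos a hQa).1 (B.pos a hQa).2 Ta.mem (Ne.symm hpa),
          zero_add]
      · rw [← ha', kap_mul S Ta (S.xU_mem_genBy (B.pos a hQa).1 (B.pos a hQa).2 Ta.mem _)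
            (S.xU_mem_genBy (B.pos a' hQa').1 (B.pos a' hQa').2 Ta'.mem _),
          kap_mul S Tb (S.xU_mem_genBy (B.pos a hQa).1 (B.pos a hQa).2 Ta.mem _)
            (S.xU_mem_genBy (B.pos a' hQa').1 (B.pos a' hQa').2 Ta'.mem _),
          kap_xU_self S Ta, kap_xU_ne S Ta (B.pos a' hQa').1 (B.pos a' hQa').2 Ta'.mem hne,
          kap_xU_ne S Tb (B.pos a hQa).1 (B.pos a hQa).2 Ta.mem (Ne.symm hpa),
          kap_xU_ne S Tb (B.pos a' hQa').1 (B.pos a' hQa').2 Ta'.mem hab, add_zero, add_zero, zero_add]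
  have hgG : g ∈ C.G1 := C.of_pos g (S.genBy_le_pos _ hgP) hgfix
  have hgz : Commute g z := by
    have : S.genBy F P ≤ Subgroup.centralizer {z} := S.genBy_le fun r _ _ h3 t =>
      Subgroup.mem_centralizer_singleton_iff.2 (hz r h3.1 t).eq
    exact Subgroup.mem_centralizer_singleton_iff.1 (this hgP)
  set u' := N * g * N⁻¹ * u * g⁻¹ with hu'
  have hu'P : u' ∈ S.genBy F P := mul_mem (mul_mem (hconjP g hgP) hu) (inv_mem hgP)
  have hu'fix : C.sg u' = u' := by
    rw [hu', map_mul, map_mul, map_mul, map_mul, map_inv, map_inv, hNfix, hgfix, hfix]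
  have hstep : CnjT C.G1 z (N * u) (N * u') := ⟨g, hgG, hgz, by
    rw [hu', hNi, show N * (N * g * N * u * g⁻¹) = (N * N) * g * N * u * g⁻¹ by group, hN2, one_mul]
    group⟩
  -- its coefficients vanish
  have hzero : ∀ x, Q x → ∀ (hnx : p x ≠ x) (hxk : code4 C p x = k),
      kap S P x u = kap S P (p x) g + kap S P x g → kap S P x u' = 0 := by
    intro x hx hnx hxk hsum
    have hpx : p (p x) ≠ p x := fun e => hnx (by rw [B.invol x hx] at e; exact e.symm)
    have hT := hlayer x hx hnx hxk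
    have e1 := kN (p x) (B.map x hx) hpx (by rw [code4_p C hp hx, hxk]) g hgP
    rw [B.invol x hx] at e1
    rw [hu', kap_mul S hT (mul_mem (hconjP g hgP) hu) (inv_mem hgP), kap_mul S hT (hconjP g hgP) hu,
      kap_inv S hT hgP, e1, hsum, CharTwo.neg_eq,
      show ∀ s t : F, s + (s + t) + t = 0 from fun s t => by
        rw [← add_assoc, CharTwo.add_self_eq_zero, zero_add, CharTwo.add_self_eq_zero]]
  have z1 : kap S P a u' = 0 := hzero a hQa hpa rfl hga.symm
  have z2 : kap S P b u' = 0 := hzero b hQb hnb hkb (by rw [hpb, hαb, ← hga, add_comm])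
  have z3 : kap S P a' u' = 0 := by
    rw [← hu'fix, kσ a hQa hpa rfl u' hu'P, z1, map_zero]
  have z4 : kap S P b' u' = 0 := by
    have hbr : C.rho b = b' := by rw [hb', ha', hp.comm a hQa]
    rw [← hu'fix, ← hbr, kσ b hQb hnb hkb u' hu'P, z2, map_zero]
  obtain ⟨t, ht, het⟩ := exists_coords S (rem4_closed C hp c) hu'P
  have hvan : ∀ x, IsTop S P x → kap S P x u' = 0 → t x = 0 := by
    intro x hT h0
    obtain ⟨t', ht', het'⟩ := exists_coords S hT.closed_del (kap_mem S hT hu'P h0)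
    rw [het] at het'
    rw [S.prodFrom_inj le_rfl het' x hT.pos.1 hT.pos.2]
    exact ht' x fun h => h.1.2 rfl
  set c' := k + 1 with hc'
  have hu'' : u' ∈ S.genBy F (Rem4 C Q p c') := by
    rw [het, Sys.prodFrom, Sys.wU]
    refine Subgroup.list_prod_mem _ fun x hx => ?_
    simp only [List.map_map, List.mem_map, List.mem_range'_1, Function.comp_apply] at hx
    obtain ⟨r, hr, rfl⟩ := hx
    by_cases h0 : t r = 0
    · rw [h0, S.xU_zero]; exact one_mem _
    have hrP : P r := by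
      by_contra h
      exact h0 (ht r fun h' => h h'.1)
    refine S.xU_mem_genBy hr.1 (by omega) ⟨hrP.1, ?_⟩ _
    by_cases hf : p r = r
    · exact Or.inl hf
    refine Or.inr ?_
    have hc1 := hmin r (Finset.mem_filter.2 ⟨Finset.mem_range.2 (by omega), hrP.1, hf,
      hrP.2.resolve_left hf⟩)
    rcases hc1.eq_or_lt with e | e
    · exfalso
      have hmem : r = a ∨ r = b ∨ r = a' ∨ r = b' := by
        have hQr := hrP.1
        have hrn := (B.pos r hQr).2
        have e' := congrArg (· % D.nroots) e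
        simp only [hk, code4, Nat.mul_add_mod_self_right] at e'
        have hla : min (min a (p a)) (min (C.rho a) (p (C.rho a))) < D.nroots :=
          lt_of_le_of_lt (le_trans (min_le_left _ _) (min_le_left _ _)) (B.pos a hQa).2
        have hlr : min (min r (p r)) (min (C.rho r) (p (C.rho r))) < D.nroots :=
          lt_of_le_of_lt (le_trans (min_le_left _ _) (min_le_left _ _)) hrn
        rw [Nat.mod_eq_of_lt hla, Nat.mod_eq_of_lt hlr] at e'
        have hm' : r = a ∨ r = b ∨ r = a' ∨ r = b' ∨ p r = a ∨ p r = b ∨ p r = a' ∨ p r = b' ∨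
            C.rho r = a ∨ C.rho r = b ∨ C.rho r = a' ∨ C.rho r = b' ∨
            p (C.rho r) = a ∨ p (C.rho r) = b ∨ p (C.rho r) = a' ∨ p (C.rho r) = b' := by
          rcases min_four r (p r) (C.rho r) (p (C.rho r)) with u1 | u1 | u1 | u1 <;>
            rcases min_four a b a' b' with u2 | u2 | u2 | u2 <;>
              (have u3 := u1.symm.trans (e'.symm.trans u2); simp only [u3, true_or, or_true])
        have rr : C.rho (C.rho r) = r := C.rho_rho r hrn
        have pr : p (p r) = r := B.invol r hQr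
        have prr : p (p (C.rho r)) = C.rho r := B.invol _ (hp.rhoQ r hQr)
        have rb : C.rho b = b' := by rw [hb', ha', hp.comm a hQa]
        have rb' : C.rho b' = b := by rw [← rb, C.rho_rho b (B.pos b hQb).2]
        have hpa2 : p a = b := rfl
        have hpa3 : p a' = b' := rfl
        have hra : C.rho a = a' := rfl
        rcases hm' with h | h | h | h | h | h | h | h | h | h | h | h | h | h | h | h
        · exact Or.inl h
        · exact Or.inr (Or.inl h)
        · exact Or.inr (Or.inr (Or.inl h))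
        · exact Or.inr (Or.inr (Or.inr h))
        · exact Or.inr (Or.inl (by rw [← pr, h]))
        · exact Or.inl (by rw [← pr, h, hpb])
        · exact Or.inr (Or.inr (Or.inr (by rw [← pr, h])))
        · exact Or.inr (Or.inr (Or.inl (by rw [← pr, h, hpb'])))
        · exact Or.inr (Or.inr (Or.inl (by rw [← rr, h])))
        · exact Or.inr (Or.inr (Or.inr (by rw [← rr, h, rb])))
        · exact Or.inl (by rw [← rr, h, ha''])
        · exact Or.inr (Or.inl (by rw [← rr, h, rb']))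
        · exact Or.inr (Or.inr (Or.inr (by rw [← rr, ← prr, h, hpa2, rb])))
        · exact Or.inr (Or.inr (Or.inl (by rw [← rr, ← prr, h, hpb])))
        · exact Or.inr (Or.inl (by rw [← rr, ← prr, h, hpa3, rb']))
        · exact Or.inl (by rw [← rr, ← prr, h, hpb', ha''])
      rcases hmem with h | h | h | h <;> subst h
      · exact h0 (hvan _ Ta z1)
      · exact h0 (hvan _ Tb z2)
      · exact h0 (hvan _ Ta' z3)
      · exact h0 (hvan _ Tb' z4)
    · omega
  have hlt : ((Finset.range D.nroots).filter fun r => Q r ∧ p r ≠ r ∧ c' ≤ code4 C p r).card < m := by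
    rw [← hm]
    refine Finset.card_lt_card (Finset.ssubset_iff_of_subset ?_ |>.2 ⟨a, haA, ?_⟩)
    · intro r hr
      obtain ⟨q1, q2, q3, q4⟩ := Finset.mem_filter.1 hr
      exact Finset.mem_filter.2 ⟨q1, q2, q3, by omega⟩
    · intro h
      have := (Finset.mem_filter.1 h).2.2.2
      omega
  obtain ⟨f, hf, hff, hc2⟩ := ih _ hlt c' rfl u' hu'' hu'fix (hstep.sq hsq)
  exact ⟨f, hf, hff, hstep.trans hc2⟩

end CfsgLib.Chev.CharTwoInvol
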